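import Mathlib
import Cfsg.Agent.AltPres54.Carmichael

/-!
Gluing a homomorphism on the alternating group of `Y` along an involution `c0` of all points.
-/

set_option autoImplicit false
set_option linter.style.haveILetI false

open Equiv

namespace CfsgLib.AltPres54

variable {α : Type*} [DecidableEq α] [Fintype α]

/-- The combinatorial data of the construction. -/
structure GlueData (α : Type*) [DecidableEq α] [Fintype α] where
  /-- the first set -/
  Y : Finset α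
  /-- the involution -/
  c0 : Perm α
  /-- generator of the overlap with its conjugate -/
  v : Perm α
  /-- crossing element in the first set -/
  g1 : Perm α
  /-- crossing element of the second set, transported to the first -/
  g : Perm α
  /-- base points -/
  a : α
  b : α
  d : α
  e : α
  c0_sq : c0 * c0 = 1
  cover : ∀ x, x ∈ Y ∨ c0 x ∈ Y
  ha : a ∈ Y ∧ c0 a ∈ Y
  hb : b ∈ Y ∧ c0 b ∈ Y
  hd : d ∈ Y ∧ c0 d ∈ Y
  he : e ∈ Y ∧ c0 e ∈ Y
  hab : a ≠ b
  hde : d ≠ e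
  had : a ≠ d
  hae : a ≠ e
  hbd : b ≠ d
  hbe : b ≠ e
  hv : v ∈ altOn Y
  hv' : c0 * v * c0 ∈ altOn Y
  hgen : altOn (Y.filter fun x => c0 x ∈ Y) ≤ Subgroup.closure {v, c0 * v * c0}
  hg1 : g1 ∈ altOn Y
  hg : g ∈ altOn Y
  hA : ∀ i ∈ Y, c0 i ∉ Y → tri a b i ∈ Subgroup.closure
    (insert g1 {σ : Perm α | σ ∈ altOn (Y.filter fun x => c0 x ∈ Y) ∧ Commute σ (c0 * g * c0)})
  hB : ∀ i ∈ Y, c0 i ∉ Y → tri (c0 d) (c0 e) i ∈ Subgroup.closure
    (insert g {σ : Perm α | σ ∈ altOn (Y.filter fun x => c0 x ∈ Y) ∧ σ (c0 a) = c0 a ∧ σ (c0 b) = c0 b})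

namespace GlueData

variable (D : GlueData α)

theorem c0_c0 (x : α) : D.c0 (D.c0 x) = x := Equiv.congr_fun D.c0_sq x

theorem c0_inv : D.c0⁻¹ = D.c0 := inv_eq_of_mul_eq_one_right D.c0_sq

/-- The overlap. -/
abbrev I : Finset α := D.Y.filter fun x => D.c0 x ∈ D.Y

theorem I_le : altOn D.I ≤ altOn D.Y := altOn_mono (Finset.filter_subset _ _)

theorem conj_mem_I {σ : Perm α} (h : σ ∈ altOn D.I) : D.c0 * σ * D.c0 ∈ altOn D.I := by
  refine ⟨?_, fun x hx => ?_⟩
  · rw [map_mul, map_mul, h.1, mul_one, ← map_mul, D.c0_sq, map_one]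
  · rw [Perm.mul_apply, Perm.mul_apply, h.2 (D.c0 x) (fun hx' => hx ?_), D.c0_c0]
    simp only [I, Finset.mem_filter, D.c0_c0] at hx' ⊢
    exact ⟨hx'.2, hx'.1⟩

theorem conj_tri' (a b i : α) : D.c0 * tri a b i * D.c0 = tri (D.c0 a) (D.c0 b) (D.c0 i) := by
  have := conj_tri D.c0 a b i
  rwa [D.c0_inv] at this

theorem tri_ab {i : α} (hi : i ∈ D.Y) (hb : i ≠ D.b) : tri D.a D.b i ∈ altOn D.Y :=
  tri_mem_altOn D.ha.1 D.hb.1 hi D.hab hb.symm

theorem tri_ab' {i : α} (hi : D.c0 i ∈ D.Y) (hb : i ≠ D.b) :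
    tri (D.c0 D.a) (D.c0 D.b) (D.c0 i) ∈ altOn D.Y :=
  tri_mem_altOn D.ha.2 D.hb.2 hi (fun h => D.hab (D.c0.injective h))
    (fun h => hb (D.c0.injective h).symm)

/-- The glued homomorphism on the whole alternating group. -/
theorem exists_glue {G : Type*} [Group G] (ι : altOn D.Y →* G) (c : G) (hc : c * c = 1)
    (hvc : c * ι ⟨D.v, D.hv⟩ * c = ι ⟨D.c0 * D.v * D.c0, D.hv'⟩)
    (hcross : Commute (ι ⟨D.g1, D.hg1⟩) (c * ι ⟨D.g, D.hg⟩ * c)) :
    ∃ Φ : alternatingGroup α →* G,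
      (∀ σ : altOn D.Y, Φ ⟨σ.1, σ.2.1⟩ = ι σ) ∧
      ∀ σ : alternatingGroup α, c * Φ σ * c = Φ ⟨D.c0 * σ.1 * D.c0, by
        rw [Perm.mem_alternatingGroup, map_mul, map_mul, Perm.mem_alternatingGroup.1 σ.2, mul_one,
          ← map_mul, D.c0_sq, map_one]⟩ := by
  classical
  have hcc : ∀ u : G, c * (c * u * c) * c = u := fun u => by
    rw [← mul_assoc, ← mul_assoc, hc, one_mul, mul_assoc, hc, mul_one]
  have hmul : ∀ u w : G, c * (u * w) * c = (c * u * c) * (c * w * c) := fun u w => by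
    calc c * (u * w) * c = c * u * 1 * w * c := by group
      _ = _ := by rw [← hc]; group
  have hsw : ∀ u w : G, Commute (c * u * c) w → Commute u (c * w * c) := by
    intro u w h
    have h4 := congrArg (fun z => c * z * c) h.eq
    rw [hmul (c * u * c) w, hmul w (c * u * c), hcc] at h4
    exact h4
  -- agreement on the overlap
  have hI : ∀ σ (h : σ ∈ altOn D.I), c * ι ⟨σ, D.I_le h⟩ * c =
      ι ⟨D.c0 * σ * D.c0, D.I_le (D.conj_mem_I h)⟩ := by
    let K : Subgroup (Perm α) :=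
      { carrier := {σ | ∃ (h : σ ∈ altOn D.Y) (h' : D.c0 * σ * D.c0 ∈ altOn D.Y),
          c * ι ⟨σ, h⟩ * c = ι ⟨_, h'⟩}
        one_mem' := ⟨one_mem _, by rw [mul_one, D.c0_sq]; exact one_mem _, by
          simp only [mul_one, D.c0_sq]
          rw [show (⟨1, one_mem _⟩ : altOn D.Y) = 1 from rfl, map_one, mul_one, hc]⟩
        mul_mem' := by
          rintro σ τ ⟨h1, h2, h3⟩ ⟨k1, k2, k3⟩
          have e : D.c0 * (σ * τ) * D.c0 = (D.c0 * σ * D.c0) * (D.c0 * τ * D.c0) := by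
            calc D.c0 * (σ * τ) * D.c0 = D.c0 * σ * 1 * τ * D.c0 := by group
              _ = _ := by rw [← D.c0_sq]; group
          refine ⟨mul_mem h1 k1, e ▸ mul_mem h2 k2, ?_⟩
          rw [show (⟨σ * τ, mul_mem h1 k1⟩ : altOn D.Y) = ⟨σ, h1⟩ * ⟨τ, k1⟩ from rfl, map_mul,
            hmul, h3, k3, ← map_mul]
          exact congrArg ι (Subtype.ext e.symm)
        inv_mem' := by
          rintro σ ⟨h1, h2, h3⟩
          have e : D.c0 * σ⁻¹ * D.c0 = (D.c0 * σ * D.c0)⁻¹ := by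
            rw [mul_inv_rev, mul_inv_rev, D.c0_inv, mul_assoc]
          refine ⟨inv_mem h1, e ▸ inv_mem h2, ?_⟩
          rw [show (⟨σ⁻¹, inv_mem h1⟩ : altOn D.Y) = ⟨σ, h1⟩⁻¹ from rfl, map_inv]
          have e' : c * (ι ⟨σ, h1⟩)⁻¹ * c = (c * ι ⟨σ, h1⟩ * c)⁻¹ := by
            rw [mul_inv_rev, mul_inv_rev, inv_eq_of_mul_eq_one_right hc, mul_assoc]
          rw [e', h3, ← map_inv]
          exact congrArg ι (Subtype.ext e.symm) }
    have hle : altOn D.I ≤ K := by
      refine D.hgen.trans ((Subgroup.closure_le K).2 ?_)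
      rintro _ (rfl | rfl)
      · exact ⟨D.hv, D.hv', hvc⟩
      · have e : D.c0 * (D.c0 * D.v * D.c0) * D.c0 = D.v := by
          rw [← mul_assoc, ← mul_assoc, D.c0_sq, one_mul, mul_assoc, D.c0_sq, mul_one]
        refine ⟨D.hv', e.symm ▸ D.hv, ?_⟩
        rw [← hvc, hcc]
        exact congrArg ι (Subtype.ext e.symm)
    intro σ h
    obtain ⟨_, _, h3⟩ := hle h
    exact h3
  -- crossing commutation
  have hX : ∀ i (hi : i ∈ D.Y) (hib : i ≠ D.b), D.c0 i ∉ D.Y →
      Commute (ι ⟨_, D.tri_ab hi hib⟩) (c * ι ⟨D.g, D.hg⟩ * c) := by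
    intro i hi hib hi'
    let C : Subgroup (Perm α) := ((Subgroup.centralizer {c * ι ⟨D.g, D.hg⟩ * c}).comap ι).map
      (altOn D.Y).subtype
    have hle : Subgroup.closure (insert D.g1
        {σ : Perm α | σ ∈ altOn D.I ∧ Commute σ (D.c0 * D.g * D.c0)}) ≤ C := by
      refine (Subgroup.closure_le C).2 ?_
      rintro σ (rfl | ⟨h, hcm⟩)
      · exact ⟨⟨D.g1, D.hg1⟩, Subgroup.mem_centralizer_singleton_iff.2 hcross.eq, rfl⟩
      · refine ⟨⟨σ, D.I_le h⟩, Subgroup.mem_centralizer_singleton_iff.2 ?_, rfl⟩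
        have h2 : Commute (D.c0 * σ * D.c0) D.g := by
          have := hcm.map (MulAut.conj D.c0).toMonoidHom
          simp only [MulEquiv.coe_toMonoidHom, MulAut.conj_apply, D.c0_inv] at this
          rwa [show D.c0 * (D.c0 * D.g * D.c0) * D.c0 = D.g by
            rw [← mul_assoc, ← mul_assoc, D.c0_sq, one_mul, mul_assoc, D.c0_sq, mul_one]] at this
        have h3 : Commute (c * ι ⟨σ, D.I_le h⟩ * c) (ι ⟨D.g, D.hg⟩) := by
          rw [hI σ h]
          exact Commute.map (Subtype.ext h2.eq) ι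
        exact (hsw _ _ h3).eq
    obtain ⟨t, ht, e⟩ := hle (D.hA i hi hi')
    rw [show (⟨_, D.tri_ab hi hib⟩ : altOn D.Y) = t from Subtype.ext e.symm]
    exact Subgroup.mem_centralizer_singleton_iff.1 ht
  have hXY : ∀ i (hi : i ∈ D.Y) (hib : i ≠ D.b), D.c0 i ∉ D.Y →
      ∀ j (hj : j ∈ D.Y) (hje : j ≠ D.c0 D.e), D.c0 j ∉ D.Y →
        Commute (ι ⟨_, D.tri_ab hi hib⟩)
          (c * ι ⟨_, tri_mem_altOn D.hd.2 D.he.2 hj (fun h => D.hde (D.c0.injective h)) hje.symm⟩ * c) := by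
    intro i hi hib hi' j hj hje hj'
    let C : Subgroup (Perm α) :=
      ((Subgroup.centralizer {c * ι ⟨_, D.tri_ab hi hib⟩ * c}).comap ι).map (altOn D.Y).subtype
    have hle : Subgroup.closure (insert D.g
        {σ : Perm α | σ ∈ altOn D.I ∧ σ (D.c0 D.a) = D.c0 D.a ∧ σ (D.c0 D.b) = D.c0 D.b}) ≤ C := by
      refine (Subgroup.closure_le C).2 ?_
      rintro σ (rfl | ⟨h, hsa, hsb⟩)
      · refine ⟨⟨D.g, D.hg⟩, Subgroup.mem_centralizer_singleton_iff.2 ?_, rfl⟩
        exact (hsw _ _ ((hX i hi hib hi').symm)).eq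
      · refine ⟨⟨σ, D.I_le h⟩, Subgroup.mem_centralizer_singleton_iff.2 ?_, rfl⟩
        have h1 : Commute (D.c0 * σ * D.c0) (tri D.a D.b i) := by
          rw [commute_iff_eq, ← mul_inv_eq_iff_eq_mul, conj_tri]
          have hfix : ∀ x, σ (D.c0 x) = D.c0 x → (D.c0 * σ * D.c0) x = x := fun x hx => by
            rw [Perm.mul_apply, Perm.mul_apply, hx, D.c0_c0]
          rw [hfix _ hsa, hfix _ hsb, hfix i (h.2 _ fun h' => hi' (Finset.mem_filter.1 h').1)]
        have h2 : Commute (c * ι ⟨σ, D.I_le h⟩ * c) (ι ⟨_, D.tri_ab hi hib⟩) := by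
          rw [hI σ h]
          exact Commute.map (Subtype.ext h1.eq) ι
        exact (hsw _ _ h2).eq
    obtain ⟨t, ht, e⟩ := hle (D.hB j hj hj')
    rw [show (⟨_, tri_mem_altOn D.hd.2 D.he.2 hj (fun h => D.hde (D.c0.injective h)) hje.symm⟩ :
      altOn D.Y) = t from Subtype.ext e.symm]
    have h : Commute (ι t) (c * ι ⟨_, D.tri_ab hi hib⟩ * c) :=
      Subgroup.mem_centralizer_singleton_iff.1 ht
    exact hsw _ _ h.symm
  -- the values on three-cycles
  let x : α → G := fun i =>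
    if h : i ∈ D.Y ∧ i ≠ D.b then ι ⟨_, D.tri_ab h.1 h.2⟩
    else if h' : D.c0 i ∈ D.Y ∧ i ≠ D.b then c * ι ⟨_, D.tri_ab' h'.1 h'.2⟩ * c else 1
  have xY : ∀ i (h : i ∈ D.Y) (h' : i ≠ D.b), x i = ι ⟨_, D.tri_ab h h'⟩ := fun i h h' =>
    dif_pos ⟨h, h'⟩
  have xC : ∀ i (h : D.c0 i ∈ D.Y) (h' : i ≠ D.b), x i = c * ι ⟨_, D.tri_ab' h h'⟩ * c := by
    intro i h h'
    by_cases hi : i ∈ D.Y
    · rw [xY i hi h']
      have hmem : tri D.a D.b i ∈ altOn D.I := tri_mem_altOn (Finset.mem_filter.2 ⟨D.ha.1, D.ha.2⟩)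
        (Finset.mem_filter.2 ⟨D.hb.1, D.hb.2⟩) (Finset.mem_filter.2 ⟨hi, h⟩) D.hab h'.symm
      rw [← hcc (ι ⟨_, D.tri_ab hi h'⟩), hI _ hmem]
      exact congrArg (fun u => c * ι u * c) (Subtype.ext (D.conj_tri' _ _ _))
    · simp only [x, hi, false_and, dite_false, h, h', ne_eq, not_false_eq_true, and_self, dite_true]
  have h3 : ∀ i ∈ (Finset.univ : Finset α), i ≠ D.a → i ≠ D.b → x i ^ 3 = 1 := by
    intro i _ hia hib
    rcases D.cover i with hi | hi
    · rw [xY i hi hib, ← map_pow]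
      exact (congrArg ι (Subtype.ext (tri_pow_three D.hab hib.symm hia.symm))).trans (map_one ι)
    · rw [xC i hi hib]
      have e : ∀ u : G, u ^ 3 = 1 → (c * u * c) ^ 3 = 1 := fun u hu => by
        rw [pow_succ, pow_two, ← hmul, ← hmul]
        rw [pow_succ, pow_two] at hu
        rw [hu, mul_one, hc]
      refine e _ ?_
      rw [← map_pow]
      exact (congrArg ι (Subtype.ext (tri_pow_three (fun h => D.hab (D.c0.injective h))
        (fun h => hib (D.c0.injective h).symm) (fun h => hia (D.c0.injective h).symm)))).trans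
        (map_one ι)
  have same : ∀ i j, i ≠ D.a → i ≠ D.b → j ≠ D.a → j ≠ D.b → i ≠ j → i ∈ D.Y → j ∈ D.Y →
      (x i * x j) ^ 2 = 1 := by
    intro i j ia ib ja jb hij hi hj
    rw [xY i hi ib, xY j hj jb, ← map_mul, ← map_pow]
    exact (congrArg ι (Subtype.ext (tri_mul_sq D.hab ib.symm ia.symm jb.symm ja.symm hij))).trans
      (map_one ι)
  have mixed : ∀ i j, i ≠ D.a → i ≠ D.b → j ≠ D.a → j ≠ D.b → i ∈ D.Y → D.c0 i ∉ D.Y →
      j ∉ D.Y → D.c0 j ∈ D.Y → (x i * x j) ^ 2 = 1 ∧ (x j * x i) ^ 2 = 1 := by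
    intro i j ia ib ja jb hi hi' hj hj'
    have jd : D.d ≠ j := fun h => hj (h ▸ D.hd.1)
    have je : D.e ≠ j := fun h => hj (h ▸ D.he.1)
    have hjj : D.c0 (D.c0 j) ∉ D.Y := by rwa [D.c0_c0]
    set s : altOn D.Y := ⟨tri (D.c0 D.d) (D.c0 D.e) (D.c0 j), tri_mem_altOn D.hd.2 D.he.2 hj'
      (fun h => D.hde (D.c0.injective h)) (fun h => je (D.c0.injective h))⟩ with hs
    have hcomm := hXY i hi ib hi' (D.c0 j) hj' (fun h => je (D.c0.injective h).symm) hjj
    -- `x j` is a conjugate of an overlap three-cycle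
    have habd : tri D.a D.b D.d ∈ altOn D.I := tri_mem_altOn
      (Finset.mem_filter.2 ⟨D.ha.1, D.ha.2⟩) (Finset.mem_filter.2 ⟨D.hb.1, D.hb.2⟩)
      (Finset.mem_filter.2 ⟨D.hd.1, D.hd.2⟩) D.hab D.hbd
    have e0 : tri (D.c0 D.a) (D.c0 D.b) (D.c0 j) =
        (tri (D.c0 D.d) (D.c0 D.e) (D.c0 j))⁻¹ * tri (D.c0 D.a) (D.c0 D.b) (D.c0 D.d) *
          tri (D.c0 D.d) (D.c0 D.e) (D.c0 j) := by
      have hne : ∀ {u w}, u ≠ w → D.c0 u ≠ D.c0 w := fun h h' => h (D.c0.injective h')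
      have e := conj_tri (tri (D.c0 D.d) (D.c0 D.e) (D.c0 j))⁻¹ (D.c0 D.a) (D.c0 D.b) (D.c0 D.d)
      rw [inv_inv] at e
      rw [e, tri_inv (hne D.hde) (hne je) (hne jd),
        tri_other (hne D.hae) (hne D.had) (hne ja.symm),
        tri_other (hne D.hbe) (hne D.hbd) (hne jb.symm),
        tri_b (hne jd) (hne je)]
    have hxj : x j = (c * ι s * c)⁻¹ * ι ⟨_, D.I_le habd⟩ * (c * ι s * c) := by
      rw [xC j hj' jb, show (⟨_, D.tri_ab' hj' jb⟩ : altOn D.Y) =
        s⁻¹ * ⟨_, D.tri_ab' D.hd.2 D.hbd.symm⟩ * s from Subtype.ext e0, map_mul, map_mul, map_inv,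
        hmul, hmul]
      have e1 : c * ι ⟨_, D.tri_ab' D.hd.2 D.hbd.symm⟩ * c = ι ⟨_, D.I_le habd⟩ := by
        rw [← hcc (ι ⟨_, D.I_le habd⟩), hI _ habd]
        exact congrArg (fun u => c * ι u * c) (Subtype.ext (D.conj_tri' _ _ _).symm)
      have e2 : c * (ι s)⁻¹ * c = (c * ι s * c)⁻¹ := by
        rw [mul_inv_rev, mul_inv_rev, inv_eq_of_mul_eq_one_right hc, mul_assoc]
      rw [e1, e2]
    have hc' : Commute (x i) (c * ι s * c) := by rw [xY i hi ib]; exact hcomm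
    have hid : i ≠ D.d := fun h => hi' (h ▸ D.hd.2)
    have q1 : (x i * ι ⟨_, D.I_le habd⟩) ^ 2 = 1 := by
      rw [xY i hi ib, ← map_mul, ← map_pow]
      exact (congrArg ι (Subtype.ext (tri_mul_sq D.hab ib.symm ia.symm D.hbd D.had hid))).trans
        (map_one ι)
    have q2 : (ι ⟨_, D.I_le habd⟩ * x i) ^ 2 = 1 := by
      rw [xY i hi ib, ← map_mul, ← map_pow]
      exact (congrArg ι (Subtype.ext (tri_mul_sq D.hab D.hbd D.had ib.symm ia.symm hid.symm))).trans
        (map_one ι)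
    set u := c * ι s * c
    set t := ι ⟨_, D.I_le habd⟩
    have hc2 : x i * u⁻¹ = u⁻¹ * x i := hc'.inv_right.eq
    constructor
    · have : x i * x j = u⁻¹ * (x i * t) * u := by
        rw [hxj, show x i * (u⁻¹ * t * u) = x i * u⁻¹ * t * u by group, hc2]; group
      rw [this, pow_two]
      calc u⁻¹ * (x i * t) * u * (u⁻¹ * (x i * t) * u) = u⁻¹ * (x i * t) ^ 2 * u := by
            rw [pow_two]; group
        _ = 1 := by rw [q1]; group
    · have : x j * x i = u⁻¹ * (t * x i) * u := by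
        rw [hxj, mul_assoc _ u (x i), ← hc'.eq]; group
      rw [this, pow_two]
      calc u⁻¹ * (t * x i) * u * (u⁻¹ * (t * x i) * u) = u⁻¹ * (t * x i) ^ 2 * u := by
            rw [pow_two]; group
        _ = 1 := by rw [q2]; group
  have h2 : ∀ i ∈ (Finset.univ : Finset α), ∀ j ∈ (Finset.univ : Finset α),
      i ≠ D.a → i ≠ D.b → j ≠ D.a → j ≠ D.b → i ≠ j → (x i * x j) ^ 2 = 1 := by
    intro i _ j _ ia ib ja jb hij
    by_cases hi : i ∈ D.Y
    · by_cases hj : j ∈ D.Y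
      · exact same i j ia ib ja jb hij hi hj
      · have hj' := (D.cover j).resolve_left hj
        by_cases hi' : D.c0 i ∈ D.Y
        · rw [xC i hi' ib, xC j hj' jb, ← hmul, ← map_mul, pow_two, ← hmul, ← map_mul]
          rw [(congrArg ι (Subtype.ext ((pow_two _).symm.trans (tri_mul_sq
            (fun h => D.hab (D.c0.injective h)) (fun h => ib (D.c0.injective h).symm)
            (fun h => ia (D.c0.injective h).symm) (fun h => jb (D.c0.injective h).symm)
            (fun h => ja (D.c0.injective h).symm) (fun h => hij (D.c0.injective h)))))).trans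
            (map_one ι), mul_one, hc]
        · exact (mixed i j ia ib ja jb hi hi' hj hj').1
    · have hi' := (D.cover i).resolve_left hi
      by_cases hj' : D.c0 j ∈ D.Y
      · rw [xC i hi' ib, xC j hj' jb, ← hmul, ← map_mul, pow_two, ← hmul, ← map_mul]
        rw [(congrArg ι (Subtype.ext ((pow_two _).symm.trans (tri_mul_sq
          (fun h => D.hab (D.c0.injective h)) (fun h => ib (D.c0.injective h).symm)
          (fun h => ia (D.c0.injective h).symm) (fun h => jb (D.c0.injective h).symm)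
          (fun h => ja (D.c0.injective h).symm) (fun h => hij (D.c0.injective h)))))).trans
          (map_one ι), mul_one, hc]
      · exact (mixed j i ja jb ia ib ((D.cover j).resolve_right hj') hj' hi hi').2
  obtain ⟨φ, hφ⟩ := exists_hom (Finset.mem_univ D.a) (Finset.mem_univ D.b) D.hab x h3 h2
  let toU : alternatingGroup α →* altOn (Finset.univ : Finset α) :=
    Subgroup.inclusion altOn_univ.ge
  let Φ : alternatingGroup α →* G := φ.comp toU
  have hΦ : ∀ i (hia : i ≠ D.a) (hib : i ≠ D.b),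
      Φ ⟨tri D.a D.b i, sign_tri D.hab hib.symm⟩ = x i := fun i hia hib =>
    hφ i (Finset.mem_univ i) hia hib
  have hΦY : ∀ σ : altOn D.Y, Φ ⟨σ.1, σ.2.1⟩ = ι σ := by
    let j : altOn D.Y →* alternatingGroup α :=
      Subgroup.inclusion (fun σ hσ => (hσ.1 : σ ∈ alternatingGroup α))
    have := hom_ext D.ha.1 D.hb.1 D.hab (Φ.comp j) ι fun i hi hia hib =>
      (hΦ i hia hib).trans (xY i hi hib)
    exact fun σ => DFunLike.congr_fun this σ
  refine ⟨Φ, hΦY, ?_⟩
  have hmem : ∀ σ : alternatingGroup α, D.c0 * σ.1 * D.c0 ∈ alternatingGroup α := fun σ => by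
    rw [Perm.mem_alternatingGroup, map_mul, map_mul, Perm.mem_alternatingGroup.1 σ.2, mul_one,
      ← map_mul, D.c0_sq, map_one]
  let γ : alternatingGroup α →* G := MonoidHom.mk' (fun σ => c * Φ σ * c) fun σ τ => by
    rw [map_mul, hmul]
  let δ : alternatingGroup α →* G := MonoidHom.mk' (fun σ => Φ ⟨_, hmem σ⟩) fun σ τ => by
    rw [← map_mul]
    refine congrArg Φ (Subtype.ext ?_)
    calc D.c0 * (σ.1 * τ.1) * D.c0 = D.c0 * σ.1 * 1 * τ.1 * D.c0 := by group
      _ = _ := by rw [← D.c0_sq]; simp only [Subgroup.coe_mul]; group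
  have hγδ : ∀ i, i ≠ D.a → ∀ hib : i ≠ D.b,
      γ ⟨tri D.a D.b i, sign_tri D.hab hib.symm⟩ = δ ⟨tri D.a D.b i, sign_tri D.hab hib.symm⟩ := by
    intro i hia hib
    change c * Φ _ * c = Φ _
    rw [hΦ i hia hib]
    by_cases hi : D.c0 i ∈ D.Y
    · rw [xC i hi hib, hcc, ← hΦY]
      exact congrArg Φ (Subtype.ext (D.conj_tri' _ _ _).symm)
    · have hiY := (D.cover i).resolve_right hi
      rw [xY i hiY hib]
      have hag : ∀ σ : altOn D.Y, c * ι σ * c = δ ⟨σ.1, σ.2.1⟩ := by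
        let jY : altOn D.Y →* alternatingGroup α :=
          Subgroup.inclusion (fun σ hσ => (hσ.1 : σ ∈ alternatingGroup α))
        let γY : altOn D.Y →* G := MonoidHom.mk' (fun σ => c * ι σ * c) fun σ τ => by
          rw [map_mul, hmul]
        have hca : D.c0 D.a ≠ D.c0 D.b := fun h => D.hab (D.c0.injective h)
        have := hom_ext D.ha.2 D.hb.2 hca γY (δ.comp jY) fun k hk hka hkb => by
          change c * ι _ * c = Φ _
          have hk1 : D.c0 k ≠ D.a := fun h => hka (by rw [← h, D.c0_c0])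
          have hk2 : D.c0 k ≠ D.b := fun h => hkb (by rw [← h, D.c0_c0])
          have e := hΦ (D.c0 k) hk1 hk2
          rw [xC (D.c0 k) (by rwa [D.c0_c0]) hk2] at e
          refine Eq.trans ?_ (Eq.trans e.symm (congrArg Φ (Subtype.ext ?_)))
          · exact congrArg (fun u => c * ι u * c) (Subtype.ext (by simp only [D.c0_c0]))
          · change tri D.a D.b (D.c0 k) = D.c0 * tri (D.c0 D.a) (D.c0 D.b) k * D.c0
            rw [D.conj_tri', D.c0_c0, D.c0_c0]
        exact fun σ => DFunLike.congr_fun this σ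
      exact hag ⟨_, D.tri_ab hiY hib⟩
  have heq : γ.comp (Subgroup.inclusion altOn_univ.le) = δ.comp (Subgroup.inclusion altOn_univ.le) :=
    hom_ext (Finset.mem_univ D.a) (Finset.mem_univ D.b) D.hab _ _ fun i _ hia hib => hγδ i hia hib
  intro σ
  exact DFunLike.congr_fun heq ⟨σ.1, altOn_univ.ge σ.2⟩

end GlueData

end CfsgLib.AltPres54
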