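import Mathlib
import Cfsg.Agent.AltPres54.Glue

/-!
Seven relations on three generators for the symmetric and alternating groups: the derivation of the
homomorphism from the relations and the presentation itself.
-/

set_option autoImplicit false
set_option linter.style.haveILetI false

open Equiv

namespace CfsgLib.AltPres54

variable {α : Type*} [DecidableEq α] [Fintype α]

/-- The data: gluing data whose set `Y` is a projective-line like set `ZMod p` plus two points. -/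
structure PresData (α : Type*) [DecidableEq α] [Fintype α] extends GlueData α where
  /-- the prime -/
  p : ℕ
  hp : p.Prime
  hp3 : 3 ≤ p
  /-- the points moved by the translation -/
  P : ZMod p → α
  /-- the first extra point -/
  o1 : α
  /-- the second extra point -/
  o2 : α
  hP : Function.Injective P
  ho : o1 ≠ o2
  ho1 : ∀ i, P i ≠ o1
  ho2 : ∀ i, P i ≠ o2
  hY : ∀ x, x ∈ Y ↔ x = o1 ∨ x = o2 ∨ ∃ i, P i = x
  hcop : (orderOf v).Coprime (p - 1)
  hcomm : Commute g1 (c0 * g * c0)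
  /-- first involution -/
  f1 : Perm α
  /-- second involution -/
  f2 : Perm α
  hf1 : f1 ∈ altOn Y
  hf2 : f2 ∈ altOn Y
  hf1s : f1 * f1 = 1
  hf2s : f2 * f2 = 1
  hfp : ((∃ k : ℕ, f1 = g1 ^ k) ∧ ∃ k : ℕ, f2 = g ^ k) ∨ f2 = 1
  hconj : Perm.sign c0 = 1 → ∃ x ∈ alternatingGroup α, x * (f1 * (c0 * f2 * c0)) * x⁻¹ = c0

namespace PresData

variable (D : PresData α)

theorem mem_o1 : D.o1 ∈ D.Y := (D.hY _).2 (Or.inl rfl)

theorem mem_o2 : D.o2 ∈ D.Y := (D.hY _).2 (Or.inr (Or.inl rfl))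

theorem mem_P (i : ZMod D.p) : D.P i ∈ D.Y := (D.hY _).2 (Or.inr (Or.inr ⟨i, rfl⟩))

theorem tri_mem (i : ZMod D.p) : tri D.o1 D.o2 (D.P i) ∈ altOn D.Y :=
  tri_mem_altOn D.mem_o1 D.mem_o2 (D.mem_P i) D.ho (D.ho2 i).symm

/-- A primitive root, chosen. -/
theorem exists_root : ∃ r : ZMod D.p, r ≠ 0 ∧ r ≠ 1 ∧ ∀ y : ZMod D.p, y ≠ 0 → ∃ k : ℕ, r ^ k = y := by
  haveI := Fact.mk D.hp
  obtain ⟨u, hu⟩ := IsCyclic.exists_generator (α := (ZMod D.p)ˣ)
  have hall : ∀ y : ZMod D.p, y ≠ 0 → ∃ k : ℕ, (u : ZMod D.p) ^ k = y := fun y hy => by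
    obtain ⟨k, hk⟩ := (mem_powers_iff_mem_zpowers.2 (hu (Units.mk0 y hy)) :
      Units.mk0 y hy ∈ Submonoid.powers u)
    exact ⟨k, by simpa using congrArg Units.val hk⟩
  refine ⟨u, u.ne_zero, fun h => ?_, hall⟩
  have h2 : (2 : ZMod D.p) ≠ 0 := by
    intro e
    have e' : ((2 : ℕ) : ZMod D.p) = 0 := by exact_mod_cast e
    rw [ZMod.natCast_eq_zero_iff] at e'
    have := Nat.le_of_dvd (by norm_num) e'
    have := D.hp3
    omega
  obtain ⟨k, hk⟩ := hall 2 h2
  rw [h, one_pow] at hk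
  exact one_ne_zero (α := ZMod D.p) (by linear_combination -hk)

/-- The primitive root. -/
noncomputable def r : ZMod D.p := D.exists_root.choose

/-- The twisting exponent, with `r * s = s - 1`. -/
noncomputable def s : ℕ := haveI := Fact.mk D.hp; ((1 - D.r)⁻¹).val

theorem s_spec : 1 ≤ D.s ∧ (((D.s - 1 : ℕ)) : ZMod D.p) = D.r * (D.s : ZMod D.p) ∧
    (D.s : ZMod D.p) ≠ 0 := by
  haveI := Fact.mk D.hp
  have h1 : (1 - D.r) ≠ 0 := sub_ne_zero.2 D.exists_root.choose_spec.2.1.symm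
  have hs : (D.s : ZMod D.p) = (1 - D.r)⁻¹ := by rw [s, ZMod.natCast_zmod_val]
  have hs0 : (D.s : ZMod D.p) ≠ 0 := by rw [hs]; exact inv_ne_zero h1
  have hpos : 1 ≤ D.s := Nat.pos_of_ne_zero fun h => hs0 (by rw [h, Nat.cast_zero])
  refine ⟨hpos, ?_, hs0⟩
  rw [Nat.cast_sub hpos, Nat.cast_one]
  have : (1 - D.r) * (D.s : ZMod D.p) = 1 := by rw [hs, mul_inv_cancel₀ h1]
  linear_combination this

/-- The points `P` as a subtype. -/
noncomputable def eP : ZMod D.p ≃ {y : α // y ∈ Set.range D.P} := Equiv.ofInjective D.P D.hP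

/-- Translation. -/
noncomputable def T : Perm α :=
  haveI : NeZero D.p := ⟨D.hp.ne_zero⟩
  letI : DecidablePred (· ∈ Set.range D.P) := Classical.decPred _
  (Equiv.addRight (1 : ZMod D.p)).extendDomain D.eP

/-- Multiplication by the primitive root, with the extra points exchanged. -/
noncomputable def W : Perm α :=
  haveI := Fact.mk D.hp
  letI : DecidablePred (· ∈ Set.range D.P) := Classical.decPred _
  Perm.extendDomain (Equiv.mulLeft₀ D.r D.exists_root.choose_spec.1) D.eP * swap D.o1 D.o2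

theorem T_P (i : ZMod D.p) : D.T (D.P i) = D.P (i + 1) := by
  letI : DecidablePred (· ∈ Set.range D.P) := Classical.decPred _
  exact Perm.extendDomain_apply_image _ D.eP i

theorem T_other {x : α} (h : ∀ i, D.P i ≠ x) : D.T x = x := by
  letI : DecidablePred (· ∈ Set.range D.P) := Classical.decPred _
  exact Perm.extendDomain_apply_not_subtype _ D.eP fun ⟨i, hi⟩ => h i hi

theorem W_P (i : ZMod D.p) : D.W (D.P i) = D.P (D.r * i) := by
  haveI := Fact.mk D.hp
  letI : DecidablePred (· ∈ Set.range D.P) := Classical.decPred _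
  rw [W, Perm.mul_apply, swap_apply_of_ne_of_ne (D.ho1 i) (D.ho2 i)]
  exact Perm.extendDomain_apply_image _ D.eP i

theorem W_o1 : D.W D.o1 = D.o2 := by
  haveI := Fact.mk D.hp
  letI : DecidablePred (· ∈ Set.range D.P) := Classical.decPred _
  rw [W, Perm.mul_apply, swap_apply_left]
  exact Perm.extendDomain_apply_not_subtype _ D.eP fun ⟨i, hi⟩ => D.ho2 i hi

theorem W_o2 : D.W D.o2 = D.o1 := by
  haveI := Fact.mk D.hp
  letI : DecidablePred (· ∈ Set.range D.P) := Classical.decPred _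
  rw [W, Perm.mul_apply, swap_apply_right]
  exact Perm.extendDomain_apply_not_subtype _ D.eP fun ⟨i, hi⟩ => D.ho1 i hi

theorem W_other {x : α} (h1 : x ≠ D.o1) (h2 : x ≠ D.o2) (h : ∀ i, D.P i ≠ x) : D.W x = x := by
  haveI := Fact.mk D.hp
  letI : DecidablePred (· ∈ Set.range D.P) := Classical.decPred _
  rw [W, Perm.mul_apply, swap_apply_of_ne_of_ne h1 h2]
  exact Perm.extendDomain_apply_not_subtype _ D.eP fun ⟨i, hi⟩ => h i hi

theorem T_pow_P (k : ℕ) (i : ZMod D.p) : (D.T ^ k) (D.P i) = D.P (i + k) := by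
  induction k with
  | zero => simp
  | succ k ih => rw [pow_succ', Perm.mul_apply, ih, D.T_P, Nat.cast_succ, add_assoc]

theorem T_pow_other (k : ℕ) {x : α} (h : ∀ i, D.P i ≠ x) : (D.T ^ k) x = x := by
  induction k with
  | zero => simp
  | succ k ih => rw [pow_succ', Perm.mul_apply, ih, D.T_other h]

theorem T_pow_p : D.T ^ D.p = 1 := by
  ext x
  by_cases h : ∃ i, D.P i = x
  · obtain ⟨i, rfl⟩ := h
    rw [D.T_pow_P, ZMod.natCast_self, add_zero, Perm.one_apply]
  · push Not at h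
    rw [D.T_pow_other _ h, Perm.one_apply]

theorem conj_T_pow {k l : ℕ} (h : (l : ZMod D.p) = D.r * k) : D.W * D.T ^ k * D.W⁻¹ = D.T ^ l := by
  rw [mul_inv_eq_iff_eq_mul]
  ext x
  by_cases hx : ∃ i, D.P i = x
  · obtain ⟨i, rfl⟩ := hx
    rw [Perm.mul_apply, Perm.mul_apply, D.T_pow_P, D.W_P, D.W_P, D.T_pow_P, h, mul_add]
  · push Not at hx
    have hw : ∀ i, D.P i ≠ D.W x := by
      intro i
      by_cases h1 : x = D.o1
      · subst h1; rw [D.W_o1]; exact D.ho2 i
      by_cases h2 : x = D.o2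
      · subst h2; rw [D.W_o2]; exact D.ho1 i
      rw [D.W_other h1 h2 hx]; exact hx i
    rw [Perm.mul_apply, Perm.mul_apply, D.T_pow_other _ hx, D.T_pow_other _ hw]

theorem T_mem : D.T ∈ altOn D.Y := by
  refine ⟨?_, fun x hx => D.T_other fun i hi => hx (hi ▸ D.mem_P i)⟩
  have h : Perm.sign D.T ^ D.p = 1 := by rw [← map_pow, D.T_pow_p, map_one]
  rcases Int.units_eq_one_or (Perm.sign D.T) with e | e
  · exact e
  · rw [e, (D.hp.odd_of_ne_two (by have := D.hp3; omega)).neg_one_pow] at h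
    exact absurd h (by decide)

theorem W_mem : D.W ∈ altOn D.Y := by
  haveI := Fact.mk D.hp
  letI : DecidablePred (· ∈ Set.range D.P) := Classical.decPred _
  refine ⟨?_, fun x hx => D.W_other (fun h => hx (h ▸ D.mem_o1)) (fun h => hx (h ▸ D.mem_o2))
    fun i hi => hx (hi ▸ D.mem_P i)⟩
  have hr := D.exists_root.choose_spec
  set m := Equiv.mulLeft₀ D.r hr.1 with hm
  have happ : ∀ y, m y = D.r * y := fun y => rfl
  have hfix : ∀ y, m y = y → y = 0 := fun y hy => by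
    rw [happ] at hy
    by_contra h
    exact hr.2.1 (mul_right_cancel₀ h (hy.trans (one_mul y).symm))
  have hpow : ∀ k : ℕ, (m ^ k) 1 = D.r ^ k := fun k => by
    induction k with
    | zero => simp
    | succ k ih => rw [pow_succ', Perm.mul_apply, ih, happ, pow_succ']
  have h1 : m 1 ≠ 1 := fun h => one_ne_zero (hfix 1 h)
  have hcyc : m.IsCycle := ⟨1, h1, fun y hy => by
    have hy0 : y ≠ 0 := fun h => hy (by rw [h, happ, mul_zero])
    obtain ⟨k, hk⟩ := hr.2.2 y hy0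
    exact ⟨k, by rw [zpow_natCast, hpow]; exact hk⟩⟩
  have hsupp : m.support = Finset.univ.erase 0 := by
    ext y
    simp only [Perm.mem_support, Finset.mem_erase, Finset.mem_univ, and_true]
    exact ⟨fun h e => h (by rw [e, happ, mul_zero]), fun h e => h (hfix y e)⟩
  have hsign : Perm.sign m = -1 := by
    rw [hcyc.sign, hsupp, Finset.card_erase_of_mem (Finset.mem_univ _), Finset.card_univ, ZMod.card,
      (D.hp.even_sub_one (by have := D.hp3; omega)).neg_one_pow]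
  rw [W, map_mul, Perm.sign_swap D.ho]
  change Perm.sign (m.extendDomain D.eP) * -1 = 1
  rw [Perm.sign_extendDomain, hsign]; rfl

theorem W_pow : D.W ^ (D.p - 1) = 1 := by
  haveI := Fact.mk D.hp
  have hr := D.exists_root.choose_spec
  have key : ∀ k : ℕ, (∀ i, (D.W ^ k) (D.P i) = D.P (D.r ^ k * i)) ∧
      (Even k → (D.W ^ k) D.o1 = D.o1 ∧ (D.W ^ k) D.o2 = D.o2) ∧
      (Odd k → (D.W ^ k) D.o1 = D.o2 ∧ (D.W ^ k) D.o2 = D.o1) ∧
      (∀ x, x ≠ D.o1 → x ≠ D.o2 → (∀ i, D.P i ≠ x) → (D.W ^ k) x = x) := by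
    intro k
    induction k with
    | zero => exact ⟨fun i => by simp, fun _ => ⟨rfl, rfl⟩, fun h => absurd h (by decide),
        fun x _ _ _ => rfl⟩
    | succ k ih =>
      obtain ⟨i1, i2, i3, i4⟩ := ih
      refine ⟨fun i => by rw [pow_succ', Perm.mul_apply, i1, D.W_P, pow_succ', mul_assoc],
        fun h => ?_, fun h => ?_, fun x h1 h2 h3 => by
          rw [pow_succ', Perm.mul_apply, i4 x h1 h2 h3, D.W_other h1 h2 h3]⟩
      · rw [Nat.even_add_one, Nat.not_even_iff_odd] at h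
        simp only [pow_succ', Perm.mul_apply, (i3 h).1, (i3 h).2, D.W_o1, D.W_o2, and_self]
      · rw [Nat.odd_add_one, Nat.not_odd_iff_even] at h
        simp only [pow_succ', Perm.mul_apply, (i2 h).1, (i2 h).2, D.W_o1, D.W_o2, and_self]
  obtain ⟨k1, k2, -, k4⟩ := key (D.p - 1)
  have hev := D.hp.even_sub_one (by have := D.hp3; omega)
  ext x
  rw [Perm.one_apply]
  by_cases h1 : x = D.o1
  · subst h1; exact (k2 hev).1
  by_cases h2 : x = D.o2
  · subst h2; exact (k2 hev).2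
  by_cases h : ∃ i, D.P i = x
  · obtain ⟨i, rfl⟩ := h
    rw [k1, show D.r ^ (D.p - 1) = 1 from ZMod.pow_card_sub_one_eq_one hr.1, one_mul]
  · push Not at h
    exact k4 x h1 h2 h

theorem conj_tri_T (i : ZMod D.p) : D.T * tri D.o1 D.o2 (D.P i) * D.T⁻¹ = tri D.o1 D.o2 (D.P (i + 1)) := by
  rw [conj_tri, D.T_P, D.T_other D.ho1, D.T_other D.ho2]

theorem conj_tri_W (i : ZMod D.p) :
    D.W * tri D.o1 D.o2 (D.P i) * D.W⁻¹ = (tri D.o1 D.o2 (D.P (D.r * i)))⁻¹ := by
  rw [conj_tri, D.W_o1, D.W_o2, D.W_P, tri_inv D.ho (D.ho2 _).symm (D.ho1 _).symm]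

/-- Substitution of conjugates of `z` by powers of `a`. -/
noncomputable def sub : FreeGroup (ZMod D.p) →* FreeGroup (Fin 3) :=
  FreeGroup.lift fun i => FreeGroup.of 0 ^ i.val * FreeGroup.of 1 * (FreeGroup.of 0 ^ i.val)⁻¹

/-- The three-cycles on generators. -/
noncomputable def theta : FreeGroup (ZMod D.p) →* altOn D.Y :=
  FreeGroup.lift fun i => ⟨tri D.o1 D.o2 (D.P i), D.tri_mem i⟩

theorem theta_surjective : Function.Surjective D.theta := by
  intro σ
  obtain ⟨w, ⟨τ, rfl⟩, e⟩ := ((Subgroup.closure_le (D.theta.range.map (altOn D.Y).subtype)).2 (by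
    rintro _ ⟨x, hx, h1, h2, rfl⟩
    obtain ⟨i, rfl⟩ := (((D.hY x).1 hx).resolve_left h1).resolve_left h2
    exact ⟨_, ⟨FreeGroup.of i, rfl⟩, by simp [theta]⟩)) (altOn_le_closure D.mem_o1 D.mem_o2 D.ho σ.2)
  exact ⟨τ, Subtype.ext e⟩

/-- A word in the generators for an element of the first set's alternating group. -/
noncomputable def word (σ : altOn D.Y) : FreeGroup (Fin 3) :=
  D.sub (Function.surjInv D.theta_surjective σ)

/-- The word standing for the multiplier. -/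
noncomputable def bWord : FreeGroup (Fin 3) :=
  (D.word ⟨D.c0 * D.v * D.c0, D.hv'⟩)⁻¹ *
    (FreeGroup.of 2 * D.word ⟨D.v, D.hv⟩ * (FreeGroup.of 2)⁻¹) * D.word ⟨D.W, D.W_mem⟩

/-- The six relators common to both groups. -/
noncomputable def six : List (FreeGroup (Fin 3)) :=
  [FreeGroup.of 0 ^ D.p * (D.bWord ^ (D.p - 1))⁻¹,
   D.bWord * FreeGroup.of 0 ^ D.s * D.bWord⁻¹ * (FreeGroup.of 0 ^ (D.s - 1))⁻¹,
   FreeGroup.of 1 ^ 3,
   D.bWord * FreeGroup.of 1 * D.bWord⁻¹ * FreeGroup.of 1,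
   (FreeGroup.of 1 * (FreeGroup.of 0 * FreeGroup.of 1 * (FreeGroup.of 0)⁻¹)) ^ 2,
   D.word ⟨D.g1, D.hg1⟩ * (FreeGroup.of 2 * D.word ⟨D.g, D.hg⟩ * (FreeGroup.of 2)⁻¹) *
     (D.word ⟨D.g1, D.hg1⟩)⁻¹ * (FreeGroup.of 2 * D.word ⟨D.g, D.hg⟩ * (FreeGroup.of 2)⁻¹)⁻¹]

/-- What the six relators give. -/
theorem derive {G : Type*} [Group G] (π : FreeGroup (Fin 3) →* G) (hrel : ∀ w ∈ D.six, π w = 1) :
    ∃ ι : altOn D.Y →* G, (∀ σ, π (D.word σ) = ι σ) ∧
      ι ⟨D.T, D.T_mem⟩ = π (FreeGroup.of 0) ∧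
      ι ⟨tri D.o1 D.o2 (D.P 0), D.tri_mem 0⟩ = π (FreeGroup.of 1) ∧
      π (FreeGroup.of 2) * ι ⟨D.v, D.hv⟩ * (π (FreeGroup.of 2))⁻¹ = ι ⟨D.c0 * D.v * D.c0, D.hv'⟩ ∧
      Commute (ι ⟨D.g1, D.hg1⟩) (π (FreeGroup.of 2) * ι ⟨D.g, D.hg⟩ * (π (FreeGroup.of 2))⁻¹) := by
  classical
  haveI := Fact.mk D.hp
  haveI : NeZero D.p := ⟨D.hp.ne_zero⟩
  obtain ⟨hs1, hs2, hs0⟩ := D.s_spec
  set a := π (FreeGroup.of 0) with ha
  set z := π (FreeGroup.of 1) with hz
  set c := π (FreeGroup.of 2) with hc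
  set b := π D.bWord with hb
  have R := fun w hw => hrel w hw
  simp only [six, List.forall_mem_cons, map_mul, map_inv, map_pow] at R
  obtain ⟨r1, r2, r3, r4, r5, r6, -⟩ := R
  rw [← ha, ← hb, mul_inv_eq_one] at r1
  rw [← ha, ← hb, mul_inv_eq_one] at r2
  rw [← hz] at r3
  rw [← hz, ← hb] at r4
  rw [← hz, ← ha] at r5
  -- the torus part
  have hap : a ^ D.p = 1 := by
    have h1 : (b * a ^ D.s * b⁻¹) ^ D.p = (a ^ (D.s - 1)) ^ D.p := by rw [r2]
    rw [conj_pow, ← pow_mul, ← pow_mul, Nat.mul_comm D.s, Nat.mul_comm (D.s - 1), pow_mul, pow_mul,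
      r1] at h1
    rw [((Commute.self_pow b (D.p - 1)).pow_right D.s).eq, mul_inv_cancel_right,
      show (b ^ (D.p - 1)) ^ D.s = (b ^ (D.p - 1)) ^ (D.s - 1 + 1) by rw [Nat.sub_add_cancel hs1],
      pow_succ, mul_eq_left] at h1
    rw [r1, h1]
  have hbp : b ^ (D.p - 1) = 1 := r1 ▸ hap
  have amod : ∀ u w : ℕ, (u : ZMod D.p) = w → a ^ u = a ^ w := fun u w h => by
    rw [← Nat.mod_add_div u D.p, ← Nat.mod_add_div w D.p, pow_add, pow_add, pow_mul, pow_mul, hap,
      one_pow, one_pow, (ZMod.natCast_eq_natCast_iff' u w D.p).1 h]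
  let ac : ZMod D.p → G := fun i => a ^ i.val
  have ac_add : ∀ i j, ac (i + j) = ac i * ac j := fun i j => by
    change a ^ (i + j).val = a ^ i.val * a ^ j.val
    rw [← pow_add]
    exact amod _ _ (by rw [ZMod.natCast_zmod_val, Nat.cast_add, ZMod.natCast_zmod_val,
      ZMod.natCast_zmod_val])
  have ac_nat : ∀ k : ℕ, ac (k : ZMod D.p) = a ^ k := fun k =>
    amod _ _ (by rw [ZMod.natCast_zmod_val])
  have conj_ac : ∀ i, b * ac i * b⁻¹ = ac (D.r * i) := by
    intro i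
    obtain ⟨k, hk⟩ := ZMod.natCast_zmod_surjective (i * (D.s : ZMod D.p)⁻¹)
    have hi : i = ((D.s * k : ℕ) : ZMod D.p) := by
      rw [Nat.cast_mul, hk, mul_comm (D.s : ZMod D.p), inv_mul_cancel_right₀ hs0]
    have hi' : D.r * i = (((D.s - 1) * k : ℕ) : ZMod D.p) := by
      rw [hi, Nat.cast_mul, Nat.cast_mul, hs2, mul_assoc]
    rw [hi', hi, ac_nat, ac_nat, pow_mul, ← conj_pow, r2, ← pow_mul]
  let x : ZMod D.p → G := fun i => ac i * z * (ac i)⁻¹
  have hx0 : x 0 = z := by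
    simp only [x, ac, ZMod.val_zero, pow_zero, one_mul, inv_one, mul_one]
  have hx1 : x 1 = a * z * a⁻¹ := by
    have : ac 1 = a := by rw [← Nat.cast_one, ac_nat, pow_one]
    simp only [x, this]
  have xtr : ∀ i j, ac i * x j * (ac i)⁻¹ = x (i + j) := fun i j => by
    simp only [x, ac_add]; group
  have hbz : b * z * b⁻¹ = z⁻¹ := eq_inv_of_mul_eq_one_left r4
  have xb : ∀ i, b * x i * b⁻¹ = (x (D.r * i))⁻¹ := fun i => by
    have : b * x i * b⁻¹ = (b * ac i * b⁻¹) * (b * z * b⁻¹) * (b * ac i * b⁻¹)⁻¹ := by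
      simp only [x]; group
    rw [this, conj_ac, hbz]; simp only [x]; group
  have x3 : ∀ i, x i ^ 3 = 1 := fun i => by
    simp only [x, conj_pow, r3, mul_one, mul_inv_cancel]
  have sym : ∀ u w : G, (u * w) ^ 2 = 1 → (w * u) ^ 2 = 1 := fun u w h => by
    have : (w * u) ^ 2 = u⁻¹ * (u * w) ^ 2 * u := by rw [pow_two, pow_two]; group
    rw [this, h]; group
  have base : ∀ k : ℕ, (x 0 * x (D.r ^ k)) ^ 2 = 1 := by
    intro k
    induction k with
    | zero => rw [pow_zero, hx0, hx1]; exact r5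
    | succ k ih =>
      have h := congrArg (fun u => b * u * b⁻¹) ih
      simp only [mul_one, mul_inv_cancel] at h
      rw [← conj_pow, show b * (x 0 * x (D.r ^ k)) * b⁻¹ = (b * x 0 * b⁻¹) * (b * x (D.r ^ k) * b⁻¹) by group,
        xb, xb, mul_zero, ← mul_inv_rev, inv_pow, inv_eq_one] at h
      rw [pow_succ' D.r]
      exact sym _ _ h
  have x2 : ∀ i j, i ≠ j → (x i * x j) ^ 2 = 1 := by
    intro i j hij
    obtain ⟨k, hk⟩ := D.exists_root.choose_spec.2.2 (j - i) (sub_ne_zero.2 hij.symm)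
    have : x i * x j = ac i * (x 0 * x (D.r ^ k)) * (ac i)⁻¹ := by
      have e1 := xtr i 0
      have e2 := xtr i (D.r ^ k)
      rw [add_zero] at e1
      rw [show D.r ^ k = j - i from hk, add_sub_cancel] at e2
      rw [← e1, ← e2, show D.r ^ k = j - i from hk]; group
    rw [this, conj_pow, base, mul_one, mul_inv_cancel]
  obtain ⟨ι, hι⟩ := exists_hom D.mem_o1 D.mem_o2 D.ho (Function.extend D.P x 1)
    (fun y hy h1 h2 => by
      obtain ⟨i, rfl⟩ := (((D.hY y).1 hy).resolve_left h1).resolve_left h2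
      rw [D.hP.extend_apply]; exact x3 i)
    (fun y hy y' hy' h1 h2 h1' h2' hne => by
      obtain ⟨i, rfl⟩ := (((D.hY y).1 hy).resolve_left h1).resolve_left h2
      obtain ⟨j, rfl⟩ := (((D.hY y').1 hy').resolve_left h1').resolve_left h2'
      rw [D.hP.extend_apply, D.hP.extend_apply]
      exact x2 i j fun h => hne (congrArg D.P h))
  have ιx : ∀ i, ι ⟨tri D.o1 D.o2 (D.P i), D.tri_mem i⟩ = x i := fun i =>
    (hι _ (D.mem_P i) (D.ho1 i) (D.ho2 i)).trans (D.hP.extend_apply _ _ i)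
  have hword : ∀ σ, π (D.word σ) = ι σ := by
    intro σ
    have e : π.comp D.sub = ι.comp D.theta := by
      refine FreeGroup.ext_hom _ _ fun i => ?_
      simp only [MonoidHom.comp_apply, sub, theta, FreeGroup.lift_apply_of, map_mul, map_inv, map_pow]
      rw [ιx, ← ha, ← hz]
    conv_rhs => rw [← Function.surjInv_eq D.theta_surjective σ]
    exact DFunLike.congr_fun e _
  -- identification of the multiplier
  set w := ι ⟨D.W, D.W_mem⟩ with hw
  have hbw : ∀ σ, b * ι σ * b⁻¹ = w * ι σ * w⁻¹ := by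
    let h1 : altOn D.Y →* G := (MulAut.conj b).toMonoidHom.comp ι
    let h2 : altOn D.Y →* G := (MulAut.conj w).toMonoidHom.comp ι
    have := hom_ext D.mem_o1 D.mem_o2 D.ho h1 h2 fun y hy h1' h2' => by
      obtain ⟨i, rfl⟩ := (((D.hY y).1 hy).resolve_left h1').resolve_left h2'
      change b * ι _ * b⁻¹ = w * ι _ * w⁻¹
      rw [ιx, xb, ← ιx, ← ιx, hw]
      simp only [← map_inv, ← map_mul]
      exact congrArg ι (Subtype.ext (D.conj_tri_W i).symm)
    exact fun σ => DFunLike.congr_fun this σ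
  set β := b * w⁻¹ with hβ
  have hβι : ∀ σ, Commute β (ι σ) := by
    intro σ
    have h := hbw (⟨D.W, D.W_mem⟩⁻¹ * σ * ⟨D.W, D.W_mem⟩)
    rw [map_mul, map_mul, map_inv, ← hw] at h
    have h' : b * w⁻¹ * ι σ * (b * w⁻¹)⁻¹ = ι σ := by
      calc b * w⁻¹ * ι σ * (b * w⁻¹)⁻¹ = b * (w⁻¹ * ι σ * w) * b⁻¹ := by group
        _ = ι σ := by rw [h]; group
    exact mul_inv_eq_iff_eq_mul.1 h'
  have hbβ : b = β * w := by rw [hβ, inv_mul_cancel_right]
  have hβ1 : β ^ (D.p - 1) = 1 := by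
    have h : b ^ (D.p - 1) = β ^ (D.p - 1) * w ^ (D.p - 1) := by
      rw [hbβ]; exact (hβι _).mul_pow _
    rw [hbp, hw, ← map_pow, show (⟨D.W, D.W_mem⟩ : altOn D.Y) ^ (D.p - 1) = 1 from
      Subtype.ext D.W_pow, map_one, mul_one] at h
    exact h.symm
  have hvβ : c * ι ⟨D.v, D.hv⟩ * c⁻¹ = ι ⟨D.c0 * D.v * D.c0, D.hv'⟩ * β := by
    rw [hβ, hb, bWord]
    simp only [map_mul, map_inv, hword, ← hc, ← hw]
    group
  have hβm : β ^ orderOf D.v = 1 := by
    have h := congrArg (fun u => u ^ orderOf D.v) hvβ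
    simp only [conj_pow, (hβι _).symm.mul_pow, ← map_pow] at h
    rw [show (⟨D.v, D.hv⟩ : altOn D.Y) ^ orderOf D.v = 1 from Subtype.ext (pow_orderOf_eq_one D.v),
      show (⟨D.c0 * D.v * D.c0, D.hv'⟩ : altOn D.Y) ^ orderOf D.v = 1 from Subtype.ext (by
        rw [SubgroupClass.coe_pow, Subgroup.coe_one]
        have := conj_pow (i := orderOf D.v) (a := D.c0) (b := D.v)
        rw [D.c0_inv, pow_orderOf_eq_one, mul_one, D.c0_sq] at this
        exact this), map_one, mul_one, mul_inv_cancel, one_mul] at h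
    exact h.symm
  have hβ0 : β = 1 := by
    have h := pow_gcd_eq_one.2 ⟨hβm, hβ1⟩
    rwa [Nat.Coprime.gcd_eq_one D.hcop, pow_one] at h
  have hbw' : b = w := by rw [hbβ, hβ0, one_mul]
  -- identification of the translation
  set t := ι ⟨D.T, D.T_mem⟩ with ht
  have hat : ∀ σ, a * ι σ * a⁻¹ = t * ι σ * t⁻¹ := by
    let h1 : altOn D.Y →* G := (MulAut.conj a).toMonoidHom.comp ι
    let h2 : altOn D.Y →* G := (MulAut.conj t).toMonoidHom.comp ι
    have := hom_ext D.mem_o1 D.mem_o2 D.ho h1 h2 fun y hy h1' h2' => by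
      obtain ⟨i, rfl⟩ := (((D.hY y).1 hy).resolve_left h1').resolve_left h2'
      change a * ι _ * a⁻¹ = t * ι _ * t⁻¹
      have e := xtr 1 i
      rw [show ac 1 = a by rw [← Nat.cast_one, ac_nat, pow_one], add_comm] at e
      rw [ιx, e, ← ιx, ← ιx, ht]
      simp only [← map_inv, ← map_mul]
      exact congrArg ι (Subtype.ext (D.conj_tri_T i).symm)
    exact fun σ => DFunLike.congr_fun this σ
  set γ := a * t⁻¹ with hγ
  have hγι : ∀ σ, Commute γ (ι σ) := by
    intro σ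
    have h := hat (⟨D.T, D.T_mem⟩⁻¹ * σ * ⟨D.T, D.T_mem⟩)
    rw [map_mul, map_mul, map_inv, ← ht] at h
    have h' : a * t⁻¹ * ι σ * (a * t⁻¹)⁻¹ = ι σ := by
      calc a * t⁻¹ * ι σ * (a * t⁻¹)⁻¹ = a * (t⁻¹ * ι σ * t) * a⁻¹ := by group
        _ = ι σ := by rw [h]; group
    exact mul_inv_eq_iff_eq_mul.1 h'
  have haγ : a = γ * t := by rw [hγ, inv_mul_cancel_right]
  have hγp : γ ^ D.p = 1 := by
    have h : a ^ D.p = γ ^ D.p * t ^ D.p := by rw [haγ]; exact (hγι _).mul_pow _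
    rw [hap, ht, ← map_pow, show (⟨D.T, D.T_mem⟩ : altOn D.Y) ^ D.p = 1 from Subtype.ext D.T_pow_p,
      map_one, mul_one] at h
    exact h.symm
  have hr1 : 1 ≤ D.r.val := Nat.pos_of_ne_zero fun h =>
    D.exists_root.choose_spec.1 ((ZMod.val_eq_zero D.r).1 h)
  have hγr : γ ^ (D.r.val - 1) = 1 := by
    have h1 : b * a * b⁻¹ = a ^ D.r.val := by
      have := conj_ac ((1 : ℕ) : ZMod D.p)
      rw [ac_nat, pow_one, Nat.cast_one, mul_one] at this
      exact this
    have h2 : b * a * b⁻¹ = γ * t ^ D.r.val := by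
      rw [hbw', haγ, show w * (γ * t) * w⁻¹ = (w * γ) * t * w⁻¹ by group, hw, ← (hγι _).eq, ← hw,
        show γ * w * t * w⁻¹ = γ * (w * t * w⁻¹) by group, hw, ht, ← map_inv ι, ← map_mul,
        ← map_mul, ← map_pow]
      refine congrArg (γ * ι ·) (Subtype.ext ?_)
      have := D.conj_T_pow (k := 1) (l := D.r.val) (by rw [ZMod.natCast_zmod_val, Nat.cast_one, mul_one])
      rw [pow_one] at this
      exact this
    rw [h1, haγ, (hγι _).mul_pow, mul_left_inj] at h2
    rw [show D.r.val = D.r.val - 1 + 1 by omega, pow_succ] at h2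
    exact mul_eq_right.1 h2
  have hγ0 : γ = 1 := by
    have h := pow_gcd_eq_one.2 ⟨hγr, hγp⟩
    have hne : D.r.val ≠ 1 := fun e => D.exists_root.choose_spec.2.1 (by
      change D.r = 1
      rw [← ZMod.natCast_zmod_val D.r, e, Nat.cast_one])
    have hcop : (D.r.val - 1).Coprime D.p := (D.hp.coprime_iff_not_dvd.2 fun hd => by
      have := Nat.le_of_dvd (by omega) hd
      have := D.r.val_lt
      omega).symm
    rwa [hcop.gcd_eq_one, pow_one] at h
  refine ⟨ι, hword, by rw [haγ, hγ0, one_mul], (ιx 0).trans hx0, by rw [hvβ, hβ0, mul_one], ?_⟩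
  rw [hword, hword, ← hc, mul_inv_eq_one, mul_inv_eq_iff_eq_mul] at r6
  exact r6

/-- The model images of the generators. -/
noncomputable def model : FreeGroup (Fin 3) →* Perm α :=
  FreeGroup.lift ![D.T, tri D.o1 D.o2 (D.P 0), D.c0]

theorem model_word (σ : altOn D.Y) : D.model (D.word σ) = σ.1 := by
  haveI : NeZero D.p := ⟨D.hp.ne_zero⟩
  have e : D.model.comp D.sub = (altOn D.Y).subtype.comp D.theta := by
    refine FreeGroup.ext_hom _ _ fun i => ?_
    simp only [MonoidHom.comp_apply, sub, theta, model, FreeGroup.lift_apply_of, map_mul, map_inv,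
      map_pow, Matrix.cons_val_zero, Matrix.cons_val_one, Subgroup.coe_subtype]
    rw [conj_tri, D.T_pow_other _ D.ho1, D.T_pow_other _ D.ho2, D.T_pow_P, zero_add,
      ZMod.natCast_zmod_val]
  conv_rhs => rw [← Function.surjInv_eq D.theta_surjective σ]
  exact DFunLike.congr_fun e _

theorem model_six : ∀ w ∈ D.six, D.model w = 1 := by
  obtain ⟨hs1, hs2, hs0⟩ := D.s_spec
  have m0 : D.model (FreeGroup.of 0) = D.T := by simp [model]
  have m1 : D.model (FreeGroup.of 1) = tri D.o1 D.o2 (D.P 0) := by simp [model]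
  have m2 : D.model (FreeGroup.of 2) = D.c0 := by simp [model]
  have hb : D.model D.bWord = D.W := by
    simp only [bWord, map_mul, map_inv, D.model_word, m2, D.c0_inv]
    rw [inv_mul_cancel, one_mul]
  simp only [six, List.forall_mem_cons, List.not_mem_nil, IsEmpty.forall_iff, forall_const, and_true,
    map_mul, map_inv, map_pow, m0, m1, m2, hb, D.model_word]
  refine ⟨?_, ?_, tri_pow_three D.ho (D.ho2 0).symm (D.ho1 0).symm, ?_, ?_, ?_⟩
  · rw [D.T_pow_p, D.W_pow, inv_one, mul_one]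
  · rw [D.conj_T_pow hs2, mul_inv_cancel]
  · rw [D.conj_tri_W, mul_zero, inv_mul_cancel]
  · haveI := Fact.mk D.hp
    rw [D.conj_tri_T, zero_add]
    exact tri_mul_sq D.ho (D.ho2 0).symm (D.ho1 0).symm (D.ho2 1).symm (D.ho1 1).symm
      (fun h => zero_ne_one (D.hP h))
  · rw [D.c0_inv, D.hcomm.eq]; group

end PresData

end CfsgLib.AltPres54
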