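import Mathlib
import Cfsg.Agent.AltPres54.Rels

/-!
The seven-relation presentations of the symmetric and alternating groups from the data.
-/

set_option autoImplicit false
set_option linter.style.haveILetI false

open Equiv

namespace CfsgLib.AltPres54

variable {α : Type*} [DecidableEq α] [Fintype α]

/-- A group of permutations has a presentation with three generators and seven relations, the
second generator being a three-cycle. -/
def Has37 (Γ : Type*) [Group Γ] (φ : Γ →* Perm α) : Prop :=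
  ∃ rels : Finset (FreeGroup (Fin 3)), rels.card ≤ 7 ∧
    ∃ e : PresentedGroup (↑rels : Set (FreeGroup (Fin 3))) ≃* Γ,
      (φ (e (PresentedGroup.of 1))).IsThreeCycle

/-- The statement for the symmetric group. -/
def HasSym (α : Type*) [DecidableEq α] [Fintype α] : Prop := Has37 (Perm α) (MonoidHom.id _)

/-- The statement for the alternating group. -/
def HasAlt (α : Type*) [DecidableEq α] [Fintype α] : Prop :=
  Has37 (alternatingGroup α) (alternatingGroup α).subtype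

theorem isThreeCycle_tri {a b i : α} (hab : a ≠ b) (hbi : b ≠ i) (hai : a ≠ i) :
    (tri a b i).IsThreeCycle := by
  have h : tri a b i = swap b a * swap b i := by rw [tri, swap_comm a b]
  rw [h]
  exact Perm.isThreeCycle_swap_mul_swap_same hab.symm hbi hai

namespace PresData

variable (D : PresData α)

theorem model_zero : D.model (FreeGroup.of 0) = D.T := by simp [model]
theorem model_one : D.model (FreeGroup.of 1) = tri D.o1 D.o2 (D.P 0) := by simp [model]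
theorem model_two : D.model (FreeGroup.of 2) = D.c0 := by simp [model]

theorem altOn_le_range : ∀ σ ∈ altOn D.Y, σ ∈ D.model.range :=
  fun σ hσ => ⟨_, D.model_word ⟨σ, hσ⟩⟩

theorem alt_le_range : alternatingGroup α ≤ D.model.range := by
  rw [← altOn_univ]
  refine (altOn_le_closure (Finset.mem_univ D.a) (Finset.mem_univ D.b) D.hab).trans
    ((Subgroup.closure_le _).2 ?_)
  rintro _ ⟨i, -, -, hb, rfl⟩
  rcases D.cover i with hi | hi
  · exact D.altOn_le_range _ (D.tri_ab hi hb)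
  · have h := D.model.range.mul_mem (D.model.range.mul_mem (⟨_, D.model_two⟩ : D.c0 ∈ D.model.range)
      (D.altOn_le_range _ (D.tri_ab' hi hb))) (⟨_, D.model_two⟩ : D.c0 ∈ D.model.range)
    rwa [D.conj_tri', D.c0_c0, D.c0_c0, D.c0_c0] at h

/-- The relators with a given seventh one. -/
noncomputable def relsWith (w : FreeGroup (Fin 3)) : Finset (FreeGroup (Fin 3)) :=
  (D.six ++ [w]).toFinset

theorem card_relsWith (w : FreeGroup (Fin 3)) : (D.relsWith w).card ≤ 7 :=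
  (List.toFinset_card_le _).trans (by simp [six])

/-- The gluing applied to a presented group satisfying all relations and `c * c = 1`. -/
theorem core {rels : Finset (FreeGroup (Fin 3))} (hsix : ∀ w ∈ D.six, w ∈ rels)
    (ι : altOn D.Y →* PresentedGroup (↑rels : Set (FreeGroup (Fin 3))))
    (hι : ∀ σ, PresentedGroup.mk _ (D.word σ) = ι σ)
    (hT : ι ⟨D.T, D.T_mem⟩ = PresentedGroup.mk _ (FreeGroup.of 0))
    (hZ : ι ⟨tri D.o1 D.o2 (D.P 0), D.tri_mem 0⟩ = PresentedGroup.mk _ (FreeGroup.of 1))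
    (hc : PresentedGroup.mk (↑rels : Set (FreeGroup (Fin 3))) (FreeGroup.of 2) *
      PresentedGroup.mk _ (FreeGroup.of 2) = 1)
    (hv : PresentedGroup.mk _ (FreeGroup.of 2) * ι ⟨D.v, D.hv⟩ *
      (PresentedGroup.mk _ (FreeGroup.of 2))⁻¹ = ι ⟨D.c0 * D.v * D.c0, D.hv'⟩)
    (hcr : Commute (ι ⟨D.g1, D.hg1⟩) (PresentedGroup.mk _ (FreeGroup.of 2) * ι ⟨D.g, D.hg⟩ *
      (PresentedGroup.mk _ (FreeGroup.of 2))⁻¹))
    (ψ : PresentedGroup (↑rels : Set (FreeGroup (Fin 3))) →* Perm α)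
    (hψ : ∀ w, ψ (PresentedGroup.mk _ w) = D.model w) :
    ∃ Φ : alternatingGroup α →* PresentedGroup (↑rels : Set (FreeGroup (Fin 3))),
      (∀ σ, ψ (Φ σ) = σ.1) ∧ (∀ σ : altOn D.Y, Φ ⟨σ.1, σ.2.1⟩ = ι σ) ∧
      (∀ σ : alternatingGroup α, ∃ τ, PresentedGroup.mk _ (FreeGroup.of 2) * Φ σ *
        PresentedGroup.mk _ (FreeGroup.of 2) = Φ τ ∧ τ.1 = D.c0 * σ.1 * D.c0) ∧
      ∀ u, (∃ σ, u = Φ σ) ∨ ∃ σ, u = Φ σ * PresentedGroup.mk _ (FreeGroup.of 2) := by
  set c := PresentedGroup.mk (↑rels : Set (FreeGroup (Fin 3))) (FreeGroup.of 2) with hcdef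
  have hci : c⁻¹ = c := inv_eq_of_mul_eq_one_right hc
  rw [hci] at hv hcr
  obtain ⟨Φ, hΦY, hΦc⟩ := D.toGlueData.exists_glue ι c hc hv hcr
  have hψι : ∀ σ, ψ (ι σ) = σ.1 := fun σ => by rw [← hι, hψ, D.model_word]
  refine ⟨Φ, ?_, hΦY, fun σ => ⟨_, hΦc σ, rfl⟩, ?_⟩
  · let K : Subgroup (alternatingGroup α) := (ψ.comp Φ).eqLocus (alternatingGroup α).subtype
    intro σ
    have hle : altOn (Finset.univ : Finset α) ≤ K.map (alternatingGroup α).subtype := by
      refine (altOn_le_closure (Finset.mem_univ D.a) (Finset.mem_univ D.b) D.hab).trans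
        ((Subgroup.closure_le _).2 ?_)
      rintro _ ⟨i, -, -, hb, rfl⟩
      refine ⟨⟨_, sign_tri D.hab hb.symm⟩, ?_, rfl⟩
      change ψ (Φ _) = tri D.a D.b i
      rcases D.cover i with hi | hi
      · rw [hΦY ⟨_, D.tri_ab hi hb⟩, hψι]
      · have h := hΦc ⟨_, sign_tri (fun h => D.hab (D.c0.injective h))
          (fun h => hb (D.c0.injective h).symm) (a := D.c0 D.a) (i := D.c0 i)⟩
        rw [hΦY ⟨_, D.tri_ab' hi hb⟩] at h
        have e : tri D.a D.b i = D.c0 * tri (D.c0 D.a) (D.c0 D.b) (D.c0 i) * D.c0 := by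
          rw [D.conj_tri', D.c0_c0, D.c0_c0, D.c0_c0]
        simp only [← e] at h
        rw [← h, map_mul, map_mul, hψι, hcdef, hψ, D.model_two]
        exact e.symm
    obtain ⟨τ, hτ, e⟩ := hle (altOn_univ.ge σ.2)
    rw [← Subtype.ext e]
    exact hτ
  · intro u
    obtain ⟨w, rfl⟩ : ∃ w, PresentedGroup.mk _ w = u := QuotientGroup.mk_surjective u
    let H : Subgroup (PresentedGroup (↑rels : Set (FreeGroup (Fin 3)))) :=
      { carrier := {u | (∃ σ, u = Φ σ) ∨ ∃ σ, u = Φ σ * c}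
        one_mem' := Or.inl ⟨1, (map_one Φ).symm⟩
        mul_mem' := by
          have hcΦ : ∀ σ, ∃ τ, c * Φ σ = Φ τ * c := fun σ => by
            exact ⟨_, eq_mul_of_mul_inv_eq ((congrArg (c * Φ σ * ·) hci).trans (hΦc σ))⟩
          rintro u v (⟨σ, rfl⟩ | ⟨σ, rfl⟩) (⟨τ, rfl⟩ | ⟨τ, rfl⟩)
          · exact Or.inl ⟨σ * τ, (map_mul Φ σ τ).symm⟩
          · exact Or.inr ⟨σ * τ, by rw [map_mul, mul_assoc]⟩
          · obtain ⟨τ', h⟩ := hcΦ τ
            exact Or.inr ⟨σ * τ', by rw [map_mul, mul_assoc, h, mul_assoc]⟩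
          · obtain ⟨τ', h⟩ := hcΦ τ
            refine Or.inl ⟨σ * τ', ?_⟩
            rw [map_mul, mul_assoc (Φ σ), ← mul_assoc c, h, mul_assoc (Φ τ'), hc, mul_one]
        inv_mem' := by
          rintro u (⟨σ, rfl⟩ | ⟨σ, rfl⟩)
          · exact Or.inl ⟨σ⁻¹, (map_inv Φ σ).symm⟩
          · exact Or.inr ⟨_, (mul_inv_rev _ _).trans ((congrArg₂ (· * ·) hci (map_inv Φ σ).symm).trans
              (eq_mul_of_mul_inv_eq ((congrArg (c * Φ σ⁻¹ * ·) hci).trans (hΦc σ⁻¹))))⟩ }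
    have : PresentedGroup.mk (↑rels : Set (FreeGroup (Fin 3))) w ∈ H := by
      refine FreeGroup.induction_on w H.one_mem (fun i => ?_) (fun i h => by
        rw [map_inv]; exact H.inv_mem h) (fun u v hu hv => by rw [map_mul]; exact H.mul_mem hu hv)
      fin_cases i
      · exact Or.inl ⟨_, hT.symm.trans (hΦY _).symm⟩
      · exact Or.inl ⟨_, hZ.symm.trans (hΦY _).symm⟩
      · exact Or.inr ⟨1, by rw [map_one, one_mul]; rfl⟩
    exact this

theorem has37_sym (hodd : Perm.sign D.c0 = -1) : HasSym α := by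
  set R := D.relsWith (FreeGroup.of 2 * FreeGroup.of 2) with hR
  have hsix : ∀ w ∈ D.six, w ∈ R := fun w hw => by
    simp only [hR, relsWith, List.mem_toFinset, List.mem_append]; exact Or.inl hw
  have hone : ∀ w ∈ R, PresentedGroup.mk (↑R : Set (FreeGroup (Fin 3))) w = 1 := fun w hw =>
    PresentedGroup.one_of_mem (Finset.mem_coe.2 hw)
  have hmodel : ∀ r ∈ (↑R : Set (FreeGroup (Fin 3))), D.model r = 1 := by
    intro r hr
    simp only [hR, relsWith, Finset.mem_coe, List.mem_toFinset, List.mem_append,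
      List.mem_singleton] at hr
    rcases hr with hr | rfl
    · exact D.model_six r hr
    · rw [map_mul, D.model_two, D.c0_sq]
  obtain ⟨ι, hι, hT, hZ, hv, hcr⟩ := D.derive (PresentedGroup.mk _) fun w hw => hone w (hsix w hw)
  have hc : PresentedGroup.mk (↑R : Set (FreeGroup (Fin 3))) (FreeGroup.of 2) *
      PresentedGroup.mk _ (FreeGroup.of 2) = 1 := by
    rw [← map_mul]
    exact hone _ (by simp [hR, relsWith])
  let ψ : PresentedGroup (↑R : Set (FreeGroup (Fin 3))) →* Perm α :=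
    PresentedGroup.toGroup (f := ![D.T, tri D.o1 D.o2 (D.P 0), D.c0]) hmodel
  have hψ : ∀ w, ψ (PresentedGroup.mk _ w) = D.model w := fun w => rfl
  obtain ⟨Φ, hΦ, -, -, hall⟩ := D.core hsix ι hι hT hZ hc hv hcr ψ hψ
  refine ⟨R, D.card_relsWith _, MulEquiv.ofBijective ψ ⟨?_, ?_⟩, ?_⟩
  rotate_left 2
  · change (D.model (FreeGroup.of 1)).IsThreeCycle
    rw [D.model_one]
    exact isThreeCycle_tri D.ho (D.ho2 0).symm (D.ho1 0).symm
  · rw [← MonoidHom.ker_eq_bot_iff, Subgroup.eq_bot_iff_forall]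
    intro u hu
    rcases hall u with ⟨σ, rfl⟩ | ⟨σ, rfl⟩
    · rw [MonoidHom.mem_ker, hΦ] at hu
      rw [show σ = 1 from Subtype.ext hu, map_one]
    · rw [MonoidHom.mem_ker, map_mul, hΦ, hψ, D.model_two] at hu
      have := congrArg Perm.sign hu
      rw [map_mul, Perm.mem_alternatingGroup.1 σ.2, hodd, one_mul, map_one] at this
      exact absurd this (by decide)
  · intro σ
    rcases Int.units_eq_one_or (Perm.sign σ) with h | h
    · exact ⟨Φ ⟨σ, h⟩, hΦ _⟩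
    · refine ⟨Φ ⟨σ * D.c0, by rw [Perm.mem_alternatingGroup, map_mul, h, hodd]; rfl⟩ *
        PresentedGroup.mk _ (FreeGroup.of 2), ?_⟩
      rw [map_mul, hΦ, hψ, D.model_two]
      change σ * D.c0 * D.c0 = σ
      rw [mul_assoc, D.c0_sq, mul_one]

theorem has37_alt (heven : Perm.sign D.c0 = 1) : HasAlt α := by
  obtain ⟨x0, hx0, hx⟩ := D.hconj heven
  obtain ⟨X, hX⟩ := D.alt_le_range hx0
  set w7 := (FreeGroup.of 2)⁻¹ * (X * (D.word ⟨D.f1, D.hf1⟩ *
    (FreeGroup.of 2 * D.word ⟨D.f2, D.hf2⟩ * (FreeGroup.of 2)⁻¹)) * X⁻¹) with hw7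
  set R := D.relsWith w7 with hR
  have hsix : ∀ w ∈ D.six, w ∈ R := fun w hw => by
    simp only [hR, relsWith, List.mem_toFinset, List.mem_append]; exact Or.inl hw
  have hone : ∀ w ∈ R, PresentedGroup.mk (↑R : Set (FreeGroup (Fin 3))) w = 1 := fun w hw =>
    PresentedGroup.one_of_mem (Finset.mem_coe.2 hw)
  have hmodel : ∀ r ∈ (↑R : Set (FreeGroup (Fin 3))), D.model r = 1 := by
    intro r hr
    simp only [hR, relsWith, Finset.mem_coe, List.mem_toFinset, List.mem_append,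
      List.mem_singleton] at hr
    rcases hr with hr | rfl
    · exact D.model_six r hr
    · simp only [hw7, map_mul, map_inv, hX, D.model_two, D.model_word, D.c0_inv]
      rw [hx, D.c0_sq]
  obtain ⟨ι, hι, hT, hZ, hv, hcr⟩ := D.derive (PresentedGroup.mk _) fun w hw => hone w (hsix w hw)
  set c := PresentedGroup.mk (↑R : Set (FreeGroup (Fin 3))) (FreeGroup.of 2) with hcdef
  set ξ := PresentedGroup.mk (↑R : Set (FreeGroup (Fin 3))) X with hξ
  set u1 := ι ⟨D.f1, D.hf1⟩ with hu1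
  set u2 := c * ι ⟨D.f2, D.hf2⟩ * c⁻¹ with hu2
  have h7 : c = ξ * (u1 * u2) * ξ⁻¹ := by
    have := hone w7 (by simp [hR, relsWith])
    simp only [hw7, map_mul, map_inv, hι, ← hcdef, ← hξ, inv_mul_eq_one] at this
    exact this
  have s1 : u1 * u1 = 1 := by
    rw [hu1, ← map_mul, show (⟨D.f1, D.hf1⟩ : altOn D.Y) * ⟨D.f1, D.hf1⟩ = 1 from
      Subtype.ext D.hf1s, map_one]
  have s2 : u2 * u2 = 1 := by
    have : u2 * u2 = c * (ι ⟨D.f2, D.hf2⟩ * ι ⟨D.f2, D.hf2⟩) * c⁻¹ := by rw [hu2]; group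
    rw [this, ← map_mul, show (⟨D.f2, D.hf2⟩ : altOn D.Y) * ⟨D.f2, D.hf2⟩ = 1 from
      Subtype.ext D.hf2s, map_one, mul_one, mul_inv_cancel]
  have hcomm : Commute u1 u2 := by
    rcases D.hfp with ⟨⟨k, hk⟩, l, hl⟩ | h
    · have e1 : u1 = ι ⟨D.g1, D.hg1⟩ ^ k := by
        rw [hu1, ← map_pow]; exact congrArg ι (Subtype.ext hk)
      have e2 : u2 = (c * ι ⟨D.g, D.hg⟩ * c⁻¹) ^ l := by
        rw [hu2, conj_pow, ← map_pow]; exact congrArg (fun z => c * ι z * c⁻¹) (Subtype.ext hl)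
      rw [e1, e2]
      exact hcr.pow_pow k l
    · have : u2 = 1 := by
        rw [hu2, show (⟨D.f2, D.hf2⟩ : altOn D.Y) = 1 from Subtype.ext h, map_one, mul_one,
          mul_inv_cancel]
      rw [this]; exact Commute.one_right _
  have hc : c * c = 1 := by
    rw [h7]
    calc ξ * (u1 * u2) * ξ⁻¹ * (ξ * (u1 * u2) * ξ⁻¹) = ξ * (u1 * (u2 * u1) * u2) * ξ⁻¹ := by group
      _ = ξ * ((u1 * u1) * (u2 * u2)) * ξ⁻¹ := by rw [← hcomm.eq]; group
      _ = 1 := by rw [s1, s2]; group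
  have hci : c⁻¹ = c := inv_eq_of_mul_eq_one_right hc
  let ψ : PresentedGroup (↑R : Set (FreeGroup (Fin 3))) →* Perm α :=
    PresentedGroup.toGroup (f := ![D.T, tri D.o1 D.o2 (D.P 0), D.c0]) hmodel
  have hψ : ∀ w, ψ (PresentedGroup.mk _ w) = D.model w := fun w => rfl
  obtain ⟨Φ, hΦ, hΦY, hΦc, hall⟩ := D.core hsix ι hι hT hZ hc hv hcr ψ hψ
  simp only [← hcdef] at hΦc hall
  -- `c` lies in the image
  have hu12 : ∃ σ, u1 * u2 = Φ σ := by
    obtain ⟨τ, hτ, -⟩ := hΦc ⟨D.f2, D.hf2.1⟩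
    refine ⟨⟨D.f1, D.hf1.1⟩ * τ, ?_⟩
    rw [map_mul, ← hτ, hu1, hu2, hci, hΦY ⟨D.f1, D.hf1⟩, hΦY ⟨D.f2, D.hf2⟩]
  have hnorm : ∀ u, ∀ σ, ∃ τ, u * Φ σ * u⁻¹ = Φ τ := by
    intro u σ
    rcases hall u with ⟨ρ, rfl⟩ | ⟨ρ, rfl⟩
    · exact ⟨ρ * σ * ρ⁻¹, by rw [map_mul, map_mul, map_inv]⟩
    · obtain ⟨τ, hτ, -⟩ := hΦc σ
      refine ⟨ρ * τ * ρ⁻¹, ?_⟩
      rw [mul_inv_rev, hci, map_mul, map_mul, map_inv, ← hτ]; group
  obtain ⟨κ, hκ⟩ : ∃ σ, c = Φ σ := by
    obtain ⟨σ, hσ⟩ := hu12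
    obtain ⟨τ, hτ⟩ := hnorm ξ σ
    exact ⟨τ, by rw [h7, hσ, hτ]⟩
  have hbij : Function.Bijective Φ := ⟨?_, ?_⟩
  · refine ⟨R, D.card_relsWith _, (MulEquiv.ofBijective Φ hbij).symm, ?_⟩
    have e : ((MulEquiv.ofBijective Φ hbij).symm (PresentedGroup.of 1)).1 = D.model (FreeGroup.of 1) := by
      rw [← hΦ]
      exact congrArg ψ ((MulEquiv.ofBijective Φ hbij).apply_symm_apply _)
    change Perm.IsThreeCycle ((MulEquiv.ofBijective Φ hbij).symm (PresentedGroup.of 1)).1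
    rw [e, D.model_one]
    exact isThreeCycle_tri D.ho (D.ho2 0).symm (D.ho1 0).symm
  · intro σ τ h
    exact Subtype.ext (by rw [← hΦ σ, ← hΦ τ, h])
  · intro u
    rcases hall u with ⟨σ, rfl⟩ | ⟨σ, rfl⟩
    · exact ⟨σ, rfl⟩
    · exact ⟨σ * κ, by rw [map_mul, ← hκ]⟩

end PresData

end CfsgLib.AltPres54
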