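import Mathlib
import Cfsg.Agent.AltPres54.Pres

/-!
Presentation data for small degrees from finite certificates.
-/

set_option autoImplicit false
set_option linter.style.haveILetI false

open Equiv

namespace CfsgLib.AltPres54

variable {n : ℕ}

/-- A permutation as a product of transpositions. -/
def permOf : List (Fin n × Fin n) → Perm (Fin n)
  | [] => 1
  | s :: l => swap s.1 s.2 * permOf l

/-- An even product of transpositions. -/
def EvenList (l : List (Fin n × Fin n)) : Prop := (∀ s ∈ l, s.1 ≠ s.2) ∧ 2 ∣ l.length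

instance (l : List (Fin n × Fin n)) : Decidable (EvenList l) :=
  inferInstanceAs (Decidable (_ ∧ _))

theorem sign_permOf : ∀ l : List (Fin n × Fin n), (∀ s ∈ l, s.1 ≠ s.2) →
    Perm.sign (permOf l) = (-1) ^ l.length
  | [], _ => by rw [permOf, map_one, List.length_nil, pow_zero]
  | s :: l, h => by
    rw [permOf, map_mul, sign_permOf l fun t ht => h t (List.mem_cons_of_mem _ ht),
      Perm.sign_swap (h s List.mem_cons_self), List.length_cons, pow_succ']

theorem sign_even {l : List (Fin n × Fin n)} (h : EvenList l) : Perm.sign (permOf l) = 1 := by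
  rw [sign_permOf l h.1]
  exact (even_iff_two_dvd.2 h.2).neg_one_pow

theorem permOf_mem {l : List (Fin n × Fin n)} {Y : Finset (Fin n)} (h : EvenList l)
    (h' : ∀ x, x ∉ Y → permOf l x = x) : permOf l ∈ altOn Y :=
  ⟨sign_even h, h'⟩

/-- A word in the listed elements. -/
def evalWord (gens : List (Perm (Fin n))) : List ℕ → Perm (Fin n)
  | [] => 1
  | i :: w => gens.getD i 1 * evalWord gens w

theorem evalWord_mem {gens : List (Perm (Fin n))} {K : Subgroup (Perm (Fin n))}
    (h : ∀ g ∈ gens, g ∈ K) : ∀ w : List ℕ, evalWord gens w ∈ K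
  | [] => one_mem _
  | i :: w => by
    refine K.mul_mem ?_ (evalWord_mem h w)
    by_cases hi : i < gens.length
    · rw [List.getD_eq_getElem _ _ hi]
      exact h _ (List.getElem_mem hi)
    · rw [List.getD_eq_default _ _ (Nat.le_of_not_lt hi)]
      exact one_mem _

theorem evalWord_replicate (v : Perm (Fin n)) :
    ∀ m : ℕ, evalWord [v] (List.replicate m 0) = v ^ m
  | 0 => (pow_zero v).symm
  | m + 1 => by
    rw [List.replicate_succ, evalWord, evalWord_replicate v m, pow_succ']
    rfl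

/-- A lookup in a table coded in base `32`. -/
def look (T y : ℕ) : ℕ := T / 32 ^ y % 32

/-- One letter on tables. -/
def stepTab (Tv Tw i y : ℕ) : ℕ := if i = 0 then look Tv y else if i = 1 then look Tw y else y

/-- A word on tables. -/
def evalTab (Tv Tw : ℕ) : List ℕ → ℕ → ℕ
  | [], y => y
  | i :: w, y => stepTab Tv Tw i (evalTab Tv Tw w y)

theorem evalTab_eq {v w : Perm (Fin n)} {Tv Tw : ℕ}
    (hT : ∀ y : Fin n, look Tv y.val = (v y).val ∧ look Tw y.val = (w y).val) :
    ∀ (l : List ℕ) (y : Fin n), evalTab Tv Tw l y.val = (evalWord [v, w] l y).val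
  | [], y => rfl
  | i :: l, y => by
    rw [evalTab, evalTab_eq hT l y, evalWord, Perm.mul_apply]
    match i with
    | 0 => exact (hT _).1
    | 1 => exact (hT _).2
    | k + 2 => rfl

/-- The first `m` points. -/
def below (n m : ℕ) : Finset (Fin n) := Finset.univ.filter fun x => x.val < m

theorem mem_below {m : ℕ} (x : Fin n) : x ∈ below n m ↔ x.val < m := by simp [below]

/-- The finite certificate. -/
structure Cert (p n : ℕ) where
  c : List (Fin n × Fin n)
  v : List (Fin n × Fin n)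
  g1 : List (Fin n × Fin n)
  g : List (Fin n × Fin n)
  f1 : List (Fin n × Fin n)
  x : List (Fin n × Fin n)
  a : Fin n
  b : Fin n
  d : Fin n
  e : Fin n
  ga : Fin n
  gb : Fin n
  m : ℕ
  extraA : List (List (Fin n × Fin n))
  extraB : List (List (Fin n × Fin n))
  wI : List (List ℕ)
  wA : List (List ℕ)
  wB : List (List ℕ)
  Tv : ℕ
  Tw : ℕ

namespace Cert

variable {p : ℕ} (C : Cert p n)

/-- The overlap. -/
def inner : Finset (Fin n) := (below n (p + 2)).filter fun y => permOf C.c y ∈ below n (p + 2)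

/-- The conditions on a certificate. -/
structure Ok : Prop where
  hp : p.Prime
  hp3 : 3 ≤ p
  hn : p + 2 ≤ n
  c_sq : ∀ y, permOf C.c (permOf C.c y) = y
  cover : ∀ y, y ∈ below n (p + 2) ∨ permOf C.c y ∈ below n (p + 2)
  points : C.a ∈ C.inner ∧ C.b ∈ C.inner ∧ C.d ∈ C.inner ∧ C.e ∈ C.inner ∧ C.ga ∈ C.inner ∧
    C.gb ∈ C.inner
  ne : C.a ≠ C.b ∧ C.d ≠ C.e ∧ C.a ≠ C.d ∧ C.a ≠ C.e ∧ C.b ≠ C.d ∧ C.b ≠ C.e ∧ C.ga ≠ C.gb
  cne : ∀ s ∈ C.c, s.1 ≠ s.2
  v_even : EvenList C.v
  v_supp : ∀ y, y ∉ C.inner → permOf C.v y = y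
  g1_even : EvenList C.g1
  g1_supp : ∀ y, y ∉ below n (p + 2) → permOf C.g1 y = y
  g_even : EvenList C.g
  g_supp : ∀ y, y ∉ below n (p + 2) → permOf C.g y = y
  f1_even : EvenList C.f1
  f1_supp : ∀ y, y ∉ below n (p + 2) → permOf C.f1 y = y
  f1_sq : ∀ y, permOf C.f1 (permOf C.f1 y) = y
  vm : ∀ y, evalWord [permOf C.v] (List.replicate C.m 0) y = y
  cop : C.m.Coprime (p - 1)
  comm : ∀ y, permOf C.g1 ((permOf C.c * permOf C.g * permOf C.c) y) =
    (permOf C.c * permOf C.g * permOf C.c) (permOf C.g1 y)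
  conj : C.c.length % 2 = 1 ∨ (EvenList C.x ∧ ∀ y, permOf C.x (permOf C.f1 y) =
    permOf C.c (permOf C.x y))
  exA : ∀ l ∈ C.extraA, EvenList l ∧ (∀ y, y ∉ C.inner → permOf l y = y) ∧
    ∀ y, permOf l ((permOf C.c * permOf C.g * permOf C.c) y) =
      (permOf C.c * permOf C.g * permOf C.c) (permOf l y)
  exB : ∀ l ∈ C.extraB, EvenList l ∧ (∀ y, y ∉ C.inner → permOf l y = y) ∧
    permOf l (permOf C.c C.a) = permOf C.c C.a ∧ permOf l (permOf C.c C.b) = permOf C.c C.b
  tabs : ∀ y : Fin n, look C.Tv y.val = (permOf C.v y).val ∧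
    look C.Tw y.val = ((permOf C.c * permOf C.v * permOf C.c) y).val
  genI : ∀ i ∈ C.inner, i ≠ C.ga → i ≠ C.gb → ∀ y : Fin n,
    evalTab C.Tv C.Tw (C.wI.getD i.val []) y.val = (tri C.ga C.gb i y).val
  genA : ∀ i ∈ below n (p + 2), permOf C.c i ∉ below n (p + 2) → ∀ y,
    evalWord (permOf C.g1 :: C.extraA.map permOf) (C.wA.getD i.val []) y = tri C.a C.b i y
  genB : ∀ i ∈ below n (p + 2), permOf C.c i ∉ below n (p + 2) → ∀ y,
    evalWord (permOf C.g :: C.extraB.map permOf) (C.wB.getD i.val []) y =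
      tri (permOf C.c C.d) (permOf C.c C.e) i y

variable {C} (h : C.Ok)
include h

theorem Ok.c_mul : permOf C.c * permOf C.c = 1 := Equiv.ext h.c_sq

theorem Ok.x_conj (hs : Perm.sign (permOf C.c) = 1) :
    ∃ x ∈ alternatingGroup (Fin n),
      x * (permOf C.f1 * (permOf C.c * 1 * permOf C.c)) * x⁻¹ = permOf C.c := by
  rcases h.conj with hodd | ⟨he, hx⟩
  · rw [sign_permOf C.c h.cne, (Nat.odd_iff.2 hodd).neg_one_pow] at hs
    exact absurd hs (by decide)
  · refine ⟨permOf C.x, sign_even he, ?_⟩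
    rw [mul_one, h.c_mul, mul_one, mul_inv_eq_iff_eq_mul]
    exact Equiv.ext hx

/-- The data of a valid certificate. -/
noncomputable def Ok.data : PresData (Fin n) where
  Y := below n (p + 2)
  c0 := permOf C.c
  v := permOf C.v
  g1 := permOf C.g1
  g := permOf C.g
  a := C.a
  b := C.b
  d := C.d
  e := C.e
  c0_sq := h.c_mul
  cover := h.cover
  ha := Finset.mem_filter.1 h.points.1
  hb := Finset.mem_filter.1 h.points.2.1
  hd := Finset.mem_filter.1 h.points.2.2.1
  he := Finset.mem_filter.1 h.points.2.2.2.1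
  hab := h.ne.1
  hde := h.ne.2.1
  had := h.ne.2.2.1
  hae := h.ne.2.2.2.1
  hbd := h.ne.2.2.2.2.1
  hbe := h.ne.2.2.2.2.2.1
  hv := altOn_mono (Finset.filter_subset _ _) (permOf_mem h.v_even h.v_supp)
  hv' := by
    refine ⟨?_, fun y hy => ?_⟩
    · rw [map_mul, map_mul, sign_even h.v_even, mul_one, Int.units_mul_self]
    · have hy' : permOf C.c y ∉ C.inner := fun h' => hy (by
        have := (Finset.mem_filter.1 h').2
        rwa [h.c_sq] at this)
      rw [Perm.mul_apply, Perm.mul_apply, h.v_supp _ hy', h.c_sq]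
  hgen := by
    refine (altOn_le_closure h.points.2.2.2.2.1 h.points.2.2.2.2.2 h.ne.2.2.2.2.2.2).trans
      ((Subgroup.closure_le _).2 ?_)
    rintro _ ⟨i, hi, hia, hib, rfl⟩
    rw [← Equiv.ext fun y => Fin.ext ((evalTab_eq h.tabs (C.wI.getD i.val []) y).symm.trans
      (h.genI i hi hia hib y))]
    refine evalWord_mem (fun g hg => Subgroup.subset_closure ?_) _
    simpa using hg
  hg1 := permOf_mem h.g1_even h.g1_supp
  hg := permOf_mem h.g_even h.g_supp
  hA := fun i hi hi' => by
    rw [← Equiv.ext (h.genA i hi hi')]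
    refine evalWord_mem (fun g hg => Subgroup.subset_closure ?_) _
    rcases List.mem_cons.1 hg with rfl | hg
    · exact Set.mem_insert _ _
    · obtain ⟨l, hl, rfl⟩ := List.mem_map.1 hg
      obtain ⟨he, hs, hc⟩ := h.exA l hl
      exact Set.mem_insert_of_mem _ ⟨permOf_mem he hs, Equiv.ext hc⟩
  hB := fun i hi hi' => by
    rw [← Equiv.ext (h.genB i hi hi')]
    refine evalWord_mem (fun g hg => Subgroup.subset_closure ?_) _
    rcases List.mem_cons.1 hg with rfl | hg
    · exact Set.mem_insert _ _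
    · obtain ⟨l, hl, rfl⟩ := List.mem_map.1 hg
      obtain ⟨he, hs, hc⟩ := h.exB l hl
      exact Set.mem_insert_of_mem _ ⟨permOf_mem he hs, hc⟩
  p := p
  hp := h.hp
  hp3 := h.hp3
  P := fun i => ⟨2 + i.val, by
    haveI : NeZero p := ⟨h.hp.ne_zero⟩
    have := i.val_lt; have := h.hn; omega⟩
  o1 := ⟨0, by have := h.hn; omega⟩
  o2 := ⟨1, by have := h.hn; omega⟩
  hP := fun i i' hh => by
    haveI : NeZero p := ⟨h.hp.ne_zero⟩
    exact ZMod.val_injective p (by simpa using hh)
  ho := by simp [Fin.ext_iff]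
  ho1 := fun i => by simp [Fin.ext_iff]
  ho2 := fun i => by simp [Fin.ext_iff]; omega
  hY := fun y => by
    haveI : NeZero p := ⟨h.hp.ne_zero⟩
    rw [mem_below]
    constructor
    · intro hy
      by_cases h0 : y.val = 0
      · exact Or.inl (Fin.ext h0)
      by_cases h1 : y.val = 1
      · exact Or.inr (Or.inl (Fin.ext h1))
      refine Or.inr (Or.inr ⟨((y.val - 2 : ℕ) : ZMod p), Fin.ext ?_⟩)
      simp only [ZMod.val_natCast, Nat.mod_eq_of_lt (show y.val - 2 < p by omega)]
      omega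
    · have := h.hp.pos
      rintro (rfl | rfl | ⟨i, rfl⟩)
      · simp only; omega
      · simp only; omega
      · have := i.val_lt; simp only; omega
  hcop := by
    refine Nat.Coprime.coprime_dvd_left (orderOf_dvd_of_pow_eq_one ?_) h.cop
    rw [← evalWord_replicate]
    exact Equiv.ext h.vm
  hcomm := Equiv.ext h.comm
  f1 := permOf C.f1
  f2 := 1
  hf1 := permOf_mem h.f1_even h.f1_supp
  hf2 := one_mem _
  hf1s := Equiv.ext h.f1_sq
  hf2s := mul_one 1
  hfp := Or.inr rfl
  hconj := h.x_conj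

theorem Ok.has_sym (ho : C.c.length % 2 = 1) : HasSym (Fin n) :=
  h.data.has37_sym (by
    change Perm.sign (permOf C.c) = -1
    rw [sign_permOf C.c h.cne, (Nat.odd_iff.2 ho).neg_one_pow])

theorem Ok.has_alt (he : C.c.length % 2 = 0) : HasAlt (Fin n) :=
  h.data.has37_alt (by
    change Perm.sign (permOf C.c) = 1
    rw [sign_permOf C.c h.cne, (Nat.even_iff.2 he).neg_one_pow])

end Cert

end CfsgLib.AltPres54
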