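import Mathlib

/-!
Many primes between `m` and `2 m`.
-/

set_option autoImplicit false
set_option linter.style.haveILetI false

open Finset Nat

namespace CfsgLib.AltPres54

/-- The primes in `(m, 2 m]`. -/
def primesAbove (m : ℕ) : Finset ℕ := (Finset.Ioc m (2 * m)).filter Nat.Prime

theorem centralBinom_le_of_few (m D : ℕ) (hm : 2 < m) (hD : (primesAbove m).card ≤ D) :
    centralBinom m ≤ (2 * m) ^ (Nat.sqrt (2 * m) + D) * 4 ^ (2 * m / 3) := by
  classical
  set f := fun x => x ^ m.centralBinom.factorization x with hf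
  have n2 : 1 ≤ 2 * m := by omega
  have f2 : ∀ p, f p ≤ 2 * m := fun p => pow_factorization_choose_le (mul_pos two_pos (by omega))
  have fne : ∀ p, f p ≠ 1 → p.Prime := fun p h => by
    contrapose! h
    simp only [hf]
    rw [factorization_eq_zero_of_not_prime m.centralBinom h, _root_.pow_zero]
  have h0 : centralBinom m = ∏ p ∈ Finset.range (2 * m + 1), f p :=
    (m.prod_pow_factorization_centralBinom).symm
  rw [h0, ← Finset.prod_filter_mul_prod_filter_not (Finset.range (2 * m + 1)) (fun p => m < p)]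
  have hhigh : ∏ p ∈ (Finset.range (2 * m + 1)).filter (fun p => m < p), f p ≤ (2 * m) ^ D := by
    rw [← Finset.prod_filter_of_ne (p := Nat.Prime) fun p _ h => fne p h]
    refine (Finset.prod_le_prod' fun p _ => f2 p).trans ?_
    rw [Finset.prod_const]
    refine pow_right_mono₀ n2 ((Finset.card_le_card fun x hx => ?_).trans hD)
    simp only [Finset.mem_filter, Finset.mem_range] at hx
    simp only [primesAbove, Finset.mem_filter, Finset.mem_Ioc]
    exact ⟨⟨hx.1.2, by omega⟩, hx.2⟩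
  have hlow : ∏ p ∈ (Finset.range (2 * m + 1)).filter (fun p => ¬ m < p), f p ≤
      (2 * m) ^ Nat.sqrt (2 * m) * 4 ^ (2 * m / 3) := by
    have hsub : ∏ p ∈ Finset.range (2 * m / 3 + 1), f p =
        ∏ p ∈ (Finset.range (2 * m + 1)).filter (fun p => ¬ m < p), f p := by
      refine Finset.prod_subset (fun x hx => ?_) fun x hx hx' => ?_
      · simp only [Finset.mem_range, Finset.mem_filter] at hx ⊢
        omega
      · simp only [Finset.mem_range, Finset.mem_filter] at hx hx'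
        by_contra h
        refine h ?_
        simp only [hf]
        rw [factorization_centralBinom_of_two_mul_self_lt_three_mul hm (by omega) (by omega),
          _root_.pow_zero]
    rw [← hsub, ← Finset.prod_filter_of_ne (p := Nat.Prime) (fun p _ h => fne p h),
      ← Finset.prod_filter_mul_prod_filter_not ((Finset.range (2 * m / 3 + 1)).filter Nat.Prime)
        (· ≤ Nat.sqrt (2 * m))]
    apply mul_le_mul'
    · refine (Finset.prod_le_prod' fun p _ => f2 p).trans ?_
      rw [Finset.prod_const]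
      have : (Finset.Icc 1 (Nat.sqrt (2 * m))).card = Nat.sqrt (2 * m) := by
        rw [Nat.card_Icc, Nat.add_sub_cancel]
      refine pow_right_mono₀ n2 ((Finset.card_le_card fun x hx => ?_).trans this.le)
      obtain ⟨h1, h2⟩ := Finset.mem_filter.1 hx
      exact Finset.mem_Icc.mpr ⟨(Finset.mem_filter.1 h1).2.one_lt.le, h2⟩
    · refine le_trans ?_ (primorial_le_four_pow (2 * m / 3))
      refine (Finset.prod_le_prod' fun p hp => (?_ : f p ≤ p)).trans ?_
      · obtain ⟨h1, h2⟩ := Finset.mem_filter.1 hp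
        refine (pow_right_mono₀ (Finset.mem_filter.1 h1).2.one_lt.le ?_).trans (pow_one p).le
        exact Nat.factorization_choose_le_one (Nat.sqrt_lt'.mp <| not_le.1 h2)
      refine Finset.prod_le_prod_of_subset_of_one_le' (Finset.filter_subset _ _) ?_
      exact fun p hp _ => (Finset.mem_filter.1 hp).2.one_lt.le
  calc _ ≤ (2 * m) ^ D * ((2 * m) ^ Nat.sqrt (2 * m) * 4 ^ (2 * m / 3)) := Nat.mul_le_mul hhigh hlow
    _ = _ := by rw [pow_add]; ring

/-- A criterion for more than `D` primes. -/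
theorem many_primes {m D t : ℕ} (hm : 4 ≤ m) (ht : 2 * m ≤ 2 ^ t)
    (he : t * (Nat.sqrt (2 * m) + D + 1) ≤ 2 * (m - 2 * m / 3)) : D < (primesAbove m).card := by
  by_contra h
  rw [not_lt] at h
  have h1 := centralBinom_le_of_few m D (by omega) h
  have h2 := Nat.four_pow_lt_mul_centralBinom m hm
  have h3 : m * centralBinom m ≤ (2 * m) ^ (Nat.sqrt (2 * m) + D + 1) * 4 ^ (2 * m / 3) := by
    rw [pow_succ, show ∀ a b c : ℕ, a * b * c = b * (a * c) from fun a b c => by ring]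
    exact Nat.mul_le_mul (by omega) h1
  have h4 : (2 * m) ^ (Nat.sqrt (2 * m) + D + 1) * 4 ^ (2 * m / 3) ≤ 4 ^ m := by
    calc (2 * m) ^ (Nat.sqrt (2 * m) + D + 1) * 4 ^ (2 * m / 3)
        ≤ (2 ^ t) ^ (Nat.sqrt (2 * m) + D + 1) * 4 ^ (2 * m / 3) :=
          Nat.mul_le_mul_right _ (Nat.pow_le_pow_left ht _)
      _ ≤ 2 ^ (2 * (m - 2 * m / 3)) * 4 ^ (2 * m / 3) := by
          rw [← pow_mul]
          exact Nat.mul_le_mul_right _ (Nat.pow_le_pow_right (by norm_num) he)
      _ = 4 ^ m := by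
          rw [pow_mul, show (2 : ℕ) ^ 2 = 4 from rfl, ← pow_add]
          congr 1
          omega
  omega

theorem sq_le_two_pow {a t0 : ℕ} (ha : 1 ≤ a) (ht0 : 5 ≤ t0)
    (h0 : 2 * (a * (t0 + 1)) ^ 2 ≤ 2 ^ t0) : ∀ t, t0 ≤ t → 2 * (a * (t + 1)) ^ 2 ≤ 2 ^ t := by
  intro t ht
  induction t, ht using Nat.le_induction with
  | base => exact h0
  | succ t ht ih =>
    have h5 : (t + 2) ^ 2 ≤ 2 * (t + 1) ^ 2 := by
      have : 5 ≤ t := by omega
      nlinarith
    calc 2 * (a * (t + 1 + 1)) ^ 2 = 2 * a ^ 2 * (t + 2) ^ 2 := by ring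
      _ ≤ 2 * a ^ 2 * (2 * (t + 1) ^ 2) := Nat.mul_le_mul_left _ h5
      _ = 2 * (2 * (a * (t + 1)) ^ 2) := by ring
      _ ≤ 2 * 2 ^ t := Nat.mul_le_mul_left _ ih
      _ = 2 ^ (t + 1) := by rw [pow_succ]; ring

theorem two_mul_le_two_pow {m a t0 : ℕ} (ha : 1 ≤ a) (ht0 : 5 ≤ t0)
    (h0 : 2 * (a * (t0 + 1)) ^ 2 ≤ 2 ^ t0) (hs : a * t0 ≤ Nat.sqrt m) :
    2 * m ≤ 2 ^ (Nat.sqrt m / a) := by
  set s := Nat.sqrt m with hsdef
  have ht : t0 ≤ s / a := (Nat.le_div_iff_mul_le ha).2 (by rw [mul_comm]; exact hs)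
  have hlt : s < a * (s / a + 1) := Nat.lt_mul_div_succ s ha
  refine le_trans ?_ (sq_le_two_pow ha ht0 h0 _ ht)
  refine Nat.mul_le_mul_left 2 ?_
  have h1 : m < (s + 1) ^ 2 := Nat.lt_succ_sqrt' m
  exact h1.le.trans (Nat.pow_le_pow_left hlt _)

theorem sqrt_two_mul_le (m : ℕ) : Nat.sqrt (2 * m) ≤ 2 * Nat.sqrt m + 1 := by
  rw [Nat.le_iff_lt_add_one, Nat.sqrt_lt']
  have h1 : m < (Nat.sqrt m + 1) ^ 2 := Nat.lt_succ_sqrt' m
  nlinarith

/-- Many primes between `m` and `2 m` for large `m`. -/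
theorem many_primes_sqrt {m : ℕ} (hm : 160000 ≤ m) :
    10 * Nat.sqrt m < (primesAbove m).card := by
  set s := Nat.sqrt m with hsdef
  have hs : 400 ≤ s := Nat.le_sqrt'.2 (by norm_num; omega)
  have hs2 : s ^ 2 ≤ m := Nat.sqrt_le' m
  refine many_primes (t := s / 20) (by omega) (two_mul_le_two_pow (a := 20) (t0 := 20) (by norm_num)
    (by norm_num) (by norm_num) (by omega)) ?_
  have h2 := sqrt_two_mul_le m
  rw [← hsdef] at h2
  have hd : 20 * (s / 20) ≤ s := Nat.mul_div_le s 20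
  have h3 : 20 * (s / 20 * (Nat.sqrt (2 * m) + 10 * s + 1)) ≤ s * (12 * s + 2) := by
    rw [← mul_assoc]
    exact Nat.mul_le_mul hd (by omega)
  have h4 : s * (12 * s + 2) = 12 * s ^ 2 + 2 * s := by ring
  have h5 : s ≤ m / 400 := (Nat.le_div_iff_mul_le (by norm_num)).2 (by nlinarith)
  omega

/-- Eight primes between `m` and `2 m`. -/
theorem eight_primes {m : ℕ} (hm : 3600 ≤ m) : 8 ≤ (primesAbove m).card := by
  set s := Nat.sqrt m with hsdef
  have hs : 60 ≤ s := Nat.le_sqrt'.2 (by norm_num; omega)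
  have hs2 : s ^ 2 ≤ m := Nat.sqrt_le' m
  refine Nat.le_of_lt (many_primes (t := s / 4) (by omega) (two_mul_le_two_pow (a := 4) (t0 := 14)
    (by norm_num) (by norm_num) (by norm_num) (by omega)) ?_)
  have h2 := sqrt_two_mul_le m
  rw [← hsdef] at h2
  have hd : 4 * (s / 4) ≤ s := Nat.mul_div_le s 4
  have h3 : 4 * (s / 4 * (Nat.sqrt (2 * m) + 8 + 1)) ≤ s * (2 * s + 10) := by
    rw [← mul_assoc]
    exact Nat.mul_le_mul hd (by omega)
  have h4 : s * (2 * s + 10) = 2 * s ^ 2 + 10 * s := by ring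
  have h5 : s ≤ m / 60 := (Nat.le_div_iff_mul_le (by norm_num)).2 (by nlinarith)
  omega

end CfsgLib.AltPres54
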