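import Cfsg.Agent.AltPres54.Family
import Cfsg.Agent.AltPres54.Primes

/-!
The family covers every degree from 19 on.
-/

set_option autoImplicit false
set_option maxHeartbeats 1000000

open Equiv

namespace CfsgLib.AltPres54

theorem of_primes {n p q : ℕ} (hp : p.Prime) (hq : q.Prime) (h1 : p + 2 ≤ n)
    (h2 : n + q + 3 ≤ 2 * p + 4) (h3 : 2 * p + 12 ≤ n + 2 * q) (h4 : ¬ q ∣ p - 1) :
    HasSym (Fin n) ∧ HasAlt (Fin n) := by
  obtain ⟨k, rfl⟩ : ∃ k, n = p + 2 + k := ⟨n - (p + 2), by omega⟩
  refine ⟨?_, ?_⟩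
  · exact Params.has_sym ⟨p, k, (p + 2 - k - q) + (1 - (k + (p + 2 - k - q)) % 2), q, hp, hq, by omega,
      by omega, by omega, by omega, by omega, h4⟩ (Nat.odd_iff.2 (by simp only; omega))
  · exact Params.has_alt ⟨p, k, (p + 2 - k - q) + (4 - (k + (p + 2 - k - q)) % 4) % 4, q, hp, hq,
      by omega, by omega, by omega, by omega, by omega, h4⟩ (Nat.dvd_of_mod_eq_zero (by simp only; omega))

theorem mem_primesAbove {m x : ℕ} : x ∈ primesAbove m ↔ (m < x ∧ x ≤ 2 * m) ∧ x.Prime := by
  rw [primesAbove, Finset.mem_filter, Finset.mem_Ioc]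

theorem large {n : ℕ} (hn : 320002 ≤ n) :
    HasSym (Fin n) ∧ HasAlt (Fin n) := by
  classical
  obtain ⟨m0, hm0, hm0', hm0''⟩ : ∃ m0, 160000 ≤ m0 ∧ 2 * m0 + 2 ≤ n ∧ n ≤ 2 * m0 + 3 :=
    ⟨(n - 2) / 2, by omega, by omega, by omega⟩
  have hc := many_primes_sqrt hm0
  set s := Nat.sqrt m0 with hs
  have hne : (primesAbove m0).Nonempty := Finset.card_pos.1 (by omega)
  set p := (primesAbove m0).max' hne with hpdef
  have hpm : (m0 < p ∧ p ≤ 2 * m0) ∧ p.Prime :=
    mem_primesAbove.1 (Finset.max'_mem (primesAbove m0) hne)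
  have hpge : (primesAbove m0).card ≤ p - m0 := by
    refine (Finset.card_le_card fun x hx => ?_).trans (Nat.card_Ioc m0 p).le
    have h1 := Finset.le_max' _ x hx
    exact Finset.mem_Ioc.2 ⟨(mem_primesAbove.1 hx).1.1, h1⟩
  have hs400 : 400 ≤ s := Nat.le_sqrt'.2 (by norm_num; omega)
  obtain ⟨m1, hm1, hm1', hm1''⟩ : ∃ m1, 10 * s ≤ m1 ∧ 2 * m1 + 3 + n ≤ 2 * p + 4 ∧
      2 * p + 4 ≤ 2 * m1 + 4 + n := ⟨(2 * p + 4 - n - 3) / 2, by omega, by omega, by omega⟩
  have h8 := eight_primes (m := m1) (by omega)
  set top := (primesAbove m1).filter (fun x => m1 + 6 < x) with htop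
  have h2 : 1 < top.card := by
    have h6 : ((primesAbove m1).filter (fun x => ¬ m1 + 6 < x)).card ≤ 6 := by
      refine (Finset.card_le_card (t := Finset.Ioc m1 (m1 + 6)) fun x hx => ?_).trans (by simp)
      simp only [mem_primesAbove, Finset.mem_filter, Finset.mem_Ioc] at hx ⊢
      omega
    have := Finset.card_filter_add_card_filter_not (s := primesAbove m1) (fun x => m1 + 6 < x)
    rw [← htop] at this
    omega
  obtain ⟨q1, hq1, q2, hq2, hne12⟩ := Finset.one_lt_card.1 h2
  simp only [htop, mem_primesAbove, Finset.mem_filter] at hq1 hq2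
  by_cases hd : q1 ∣ p - 1
  · refine of_primes hpm.2 hq2.1.2 (by omega) (by omega) (by omega) fun hd' => ?_
    have hdd := Nat.Coprime.mul_dvd_of_dvd_of_dvd ((Nat.coprime_primes hq1.1.2 hq2.1.2).2 hne12) hd hd'
    have hle := Nat.le_of_dvd (by omega) hdd
    have hprod : (10 * s) * (10 * s) ≤ q1 * q2 := Nat.mul_le_mul (by omega) (by omega)
    have hm : m0 < (s + 1) ^ 2 := Nat.lt_succ_sqrt' m0
    have e1 : (10 * s) * (10 * s) = 100 * (s * s) := by ring
    have e2 : (s + 1) ^ 2 ≤ 4 * (s * s) :=
      (Nat.pow_le_pow_left (show s + 1 ≤ 2 * s by omega) 2).trans (by rw [mul_pow, pow_two s]; norm_num)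
    have e3 : 1 ≤ s * s := Nat.mul_pos (by omega) (by omega)
    omega
  · exact of_primes hpm.2 hq1.1.2 (by omega) (by omega) (by omega) hd

theorem cover {n : ℕ} (hn : 19 ≤ n ∨ n = 15 ∨ n = 16) :
    HasSym (Fin n) ∧ HasAlt (Fin n) := by
  by_cases h15 : n = 15
  · subst h15
    exact ⟨Params.has_sym ⟨13, 0, 5, 11, by norm_num, by norm_num, by norm_num, by norm_num, by norm_num, by norm_num, by norm_num, by norm_num⟩ (by decide),
      Params.has_alt ⟨13, 0, 4, 11, by norm_num, by norm_num, by norm_num, by norm_num, by norm_num, by norm_num, by norm_num, by norm_num⟩ (by norm_num)⟩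
  by_cases h16 : n = 16
  · subst h16
    exact ⟨Params.has_sym ⟨13, 1, 6, 11, by norm_num, by norm_num, by norm_num, by norm_num, by norm_num, by norm_num, by norm_num, by norm_num⟩ (by decide),
      Params.has_alt ⟨13, 1, 3, 11, by norm_num, by norm_num, by norm_num, by norm_num, by norm_num, by norm_num, by norm_num, by norm_num⟩ (by norm_num)⟩
  by_cases h19 : n = 19
  · subst h19
    exact ⟨Params.has_sym ⟨17, 0, 7, 13, by norm_num, by norm_num, by norm_num, by norm_num, by norm_num, by norm_num, by norm_num, by norm_num⟩ (by decide),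
      Params.has_alt ⟨17, 0, 8, 13, by norm_num, by norm_num, by norm_num, by norm_num, by norm_num, by norm_num, by norm_num, by norm_num⟩ (by norm_num)⟩
  by_cases h22 : n = 22
  · subst h22
    exact ⟨Params.has_sym ⟨19, 1, 8, 17, by norm_num, by norm_num, by norm_num, by norm_num, by norm_num, by norm_num, by norm_num, by norm_num⟩ (by decide),
      Params.has_alt ⟨19, 1, 7, 17, by norm_num, by norm_num, by norm_num, by norm_num, by norm_num, by norm_num, by norm_num, by norm_num⟩ (by norm_num)⟩
  by_cases h23 : n = 23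
  · subst h23
    exact ⟨Params.has_sym ⟨19, 2, 7, 13, by norm_num, by norm_num, by norm_num, by norm_num, by norm_num, by norm_num, by norm_num, by norm_num⟩ (by decide),
      Params.has_alt ⟨19, 2, 6, 13, by norm_num, by norm_num, by norm_num, by norm_num, by norm_num, by norm_num, by norm_num, by norm_num⟩ (by norm_num)⟩
  by_cases h20 : 20 ≤ n ∧ n ≤ 20
  · exact of_primes (p := 17) (q := 13) (by norm_num) (by norm_num) (by omega) (by omega) (by omega) (by norm_num)
  by_cases h21 : 21 ≤ n ∧ n ≤ 21
  · exact of_primes (p := 19) (q := 17) (by norm_num) (by norm_num) (by omega) (by omega) (by omega) (by norm_num)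
  by_cases h24 : 24 ≤ n ∧ n ≤ 26
  · exact of_primes (p := 19) (q := 13) (by norm_num) (by norm_num) (by omega) (by omega) (by omega) (by norm_num)
  by_cases h26 : 26 ≤ n ∧ n ≤ 30
  · exact of_primes (p := 23) (q := 17) (by norm_num) (by norm_num) (by omega) (by omega) (by omega) (by norm_num)
  by_cases h31 : 31 ≤ n ∧ n ≤ 31
  · exact of_primes (p := 29) (q := 23) (by norm_num) (by norm_num) (by omega) (by omega) (by omega) (by norm_num)
  by_cases h32 : 32 ≤ n ∧ n ≤ 40
  · exact of_primes (p := 29) (q := 19) (by norm_num) (by norm_num) (by omega) (by omega) (by omega) (by norm_num)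
  by_cases h40 : 40 ≤ n ∧ n ≤ 52
  · exact of_primes (p := 37) (q := 23) (by norm_num) (by norm_num) (by omega) (by omega) (by omega) (by norm_num)
  by_cases h50 : 50 ≤ n ∧ n ≤ 66
  · exact of_primes (p := 47) (q := 29) (by norm_num) (by norm_num) (by omega) (by omega) (by omega) (by norm_num)
  by_cases h64 : 64 ≤ n ∧ n ≤ 86
  · exact of_primes (p := 61) (q := 37) (by norm_num) (by norm_num) (by omega) (by omega) (by omega) (by norm_num)
  by_cases h86 : 86 ≤ n ∧ n ≤ 120
  · exact of_primes (p := 83) (q := 47) (by norm_num) (by norm_num) (by omega) (by omega) (by omega) (by norm_num)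
  by_cases h120 : 120 ≤ n ∧ n ≤ 168
  · exact of_primes (p := 113) (q := 59) (by norm_num) (by norm_num) (by omega) (by omega) (by omega) (by norm_num)
  by_cases h166 : 166 ≤ n ∧ n ≤ 238
  · exact of_primes (p := 163) (q := 89) (by norm_num) (by norm_num) (by omega) (by omega) (by omega) (by norm_num)
  by_cases h236 : 236 ≤ n ∧ n ≤ 340
  · exact of_primes (p := 233) (q := 127) (by norm_num) (by norm_num) (by omega) (by omega) (by omega) (by norm_num)
  by_cases h340 : 340 ≤ n ∧ n ≤ 502
  · exact of_primes (p := 337) (q := 173) (by norm_num) (by norm_num) (by omega) (by omega) (by omega) (by norm_num)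
  by_cases h502 : 502 ≤ n ∧ n ≤ 742
  · exact of_primes (p := 499) (q := 257) (by norm_num) (by norm_num) (by omega) (by omega) (by omega) (by norm_num)
  by_cases h742 : 742 ≤ n ∧ n ≤ 1100
  · exact of_primes (p := 739) (q := 379) (by norm_num) (by norm_num) (by omega) (by omega) (by omega) (by norm_num)
  by_cases h1100 : 1100 ≤ n ∧ n ≤ 1638
  · exact of_primes (p := 1097) (q := 557) (by norm_num) (by norm_num) (by omega) (by omega) (by omega) (by norm_num)
  by_cases h1636 : 1636 ≤ n ∧ n ≤ 2434
  · exact of_primes (p := 1621) (q := 809) (by norm_num) (by norm_num) (by omega) (by omega) (by omega) (by norm_num)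
  by_cases h2432 : 2432 ≤ n ∧ n ≤ 3634
  · exact of_primes (p := 2423) (q := 1213) (by norm_num) (by norm_num) (by omega) (by omega) (by omega) (by norm_num)
  by_cases h3634 : 3634 ≤ n ∧ n ≤ 5440
  · exact of_primes (p := 3631) (q := 1823) (by norm_num) (by norm_num) (by omega) (by omega) (by omega) (by norm_num)
  by_cases h5440 : 5440 ≤ n ∧ n ≤ 8146
  · exact of_primes (p := 5437) (q := 2729) (by norm_num) (by norm_num) (by omega) (by omega) (by omega) (by norm_num)
  by_cases h8144 : 8144 ≤ n ∧ n ≤ 12190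
  · exact of_primes (p := 8123) (q := 4057) (by norm_num) (by norm_num) (by omega) (by omega) (by omega) (by norm_num)
  by_cases h12188 : 12188 ≤ n ∧ n ≤ 18250
  · exact of_primes (p := 12161) (q := 6073) (by norm_num) (by norm_num) (by omega) (by omega) (by omega) (by norm_num)
  by_cases h18236 : 18236 ≤ n ∧ n ≤ 27340
  · exact of_primes (p := 18233) (q := 9127) (by norm_num) (by norm_num) (by omega) (by omega) (by omega) (by norm_num)
  by_cases h27340 : 27340 ≤ n ∧ n ≤ 40996
  · exact of_primes (p := 27337) (q := 13679) (by norm_num) (by norm_num) (by omega) (by omega) (by omega) (by norm_num)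
  by_cases h40996 : 40996 ≤ n ∧ n ≤ 61480
  · exact of_primes (p := 40993) (q := 20507) (by norm_num) (by norm_num) (by omega) (by omega) (by omega) (by norm_num)
  by_cases h61474 : 61474 ≤ n ∧ n ≤ 92186
  · exact of_primes (p := 61471) (q := 30757) (by norm_num) (by norm_num) (by omega) (by omega) (by omega) (by norm_num)
  by_cases h92186 : 92186 ≤ n ∧ n ≤ 138266
  · exact of_primes (p := 92179) (q := 46093) (by norm_num) (by norm_num) (by omega) (by omega) (by omega) (by norm_num)
  by_cases h138266 : 138266 ≤ n ∧ n ≤ 207376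
  · exact of_primes (p := 138251) (q := 69127) (by norm_num) (by norm_num) (by omega) (by omega) (by omega) (by norm_num)
  by_cases h207376 : 207376 ≤ n ∧ n ≤ 311044
  · exact of_primes (p := 207371) (q := 103699) (by norm_num) (by norm_num) (by omega) (by omega) (by omega) (by norm_num)
  by_cases h311044 : 311044 ≤ n ∧ n ≤ 466546
  · exact of_primes (p := 311041) (q := 155537) (by norm_num) (by norm_num) (by omega) (by omega) (by omega) (by norm_num)
  exact large (by omega)

end CfsgLib.AltPres54
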