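import Mathlib
import Cfsg.Agent.AltPres54.Pres
import Cfsg.Agent.PermPrimes.JordanCycle

/-!
The general family of presentation data on `Fin (p + 2 + k)`.
-/

set_option autoImplicit false
set_option linter.style.haveILetI false

open Equiv

namespace CfsgLib.AltPres54

/-- Transitive group with a long prime cycle. -/
theorem alt_le_of_big_cycle {β : Type*} [DecidableEq β] [Fintype β] (H : Subgroup (Perm β)) {q : ℕ}
    (hq : q.Prime) {Y : Perm β} (hYc : Y.IsCycle) (hYq : Y.support.card = q) (hY : Y ∈ H)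
    (h2 : Fintype.card β < 2 * q) (h3 : q + 3 ≤ Fintype.card β)
    (hto : ∀ i, ∃ h ∈ H, ∃ y ∈ Y.support, h y = i) : alternatingGroup β ≤ H := by
  classical
  obtain ⟨y0, hy0⟩ := hYc.nonempty_support
  have hto' : ∀ i, ∃ h ∈ H, h y0 = i := fun i => by
    obtain ⟨h, hh, y, hy, e⟩ := hto i
    obtain ⟨l, hl⟩ := hYc.sameCycle (Perm.mem_support.1 hy0) (Perm.mem_support.1 hy)
    exact ⟨h * Y ^ l, H.mul_mem hh (H.zpow_mem hY l), by rw [Perm.mul_apply, hl, e]⟩
  haveI : MulAction.IsPretransitive H β := ⟨fun a b => by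
    obtain ⟨ha, hha, ha'⟩ := hto' a
    obtain ⟨hb, hhb, hb'⟩ := hto' b
    refine ⟨⟨hb * ha⁻¹, H.mul_mem hhb (H.inv_mem hha)⟩, ?_⟩
    show (hb * ha⁻¹) a = b
    rw [Perm.mul_apply, show ha⁻¹ a = y0 from Equiv.Perm.inv_eq_iff_eq.2 ha'.symm, hb']⟩
  have hinv : ∀ f ∈ Subgroup.zpowers Y, ∀ z ∈ Y.support, f z ∈ Y.support := by
    intro f hf z hz
    obtain ⟨l, rfl⟩ := Subgroup.mem_zpowers_iff.1 hf
    rwa [Equiv.Perm.zpow_apply_mem_support]
  let Z := {z // z ∈ Y.support}
  letI actZ : MulAction (Subgroup.zpowers Y) Z :=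
    { smul := fun f z => ⟨(f : Perm β) z.1, hinv f f.2 z.1 z.2⟩
      one_smul := fun z => rfl
      mul_smul := fun f f' z => rfl }
  haveI : MulAction.IsPretransitive (Subgroup.zpowers Y) Z := ⟨fun a b => by
    obtain ⟨l, hl⟩ := hYc.sameCycle (Perm.mem_support.1 a.2) (Perm.mem_support.1 b.2)
    exact ⟨⟨Y ^ l, Subgroup.mem_zpowers_iff.2 ⟨l, rfl⟩⟩, Subtype.ext hl⟩⟩
  haveI : MulAction.IsPreprimitive (Subgroup.zpowers Y) Z := MulAction.IsPreprimitive.of_prime_card (by
    rw [Nat.card_eq_fintype_card, Fintype.card_coe, hYq]; exact hq)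
  let φ : Subgroup.zpowers Y → H := fun f => ⟨f.1, (Subgroup.zpowers_le.2 hY) f.2⟩
  let ι : Z →ₑ[φ] β :=
    { toFun := fun z => z.1
      map_smul' := fun f z => rfl }
  have hprim : MulAction.IsPreprimitive H β := by
    refine MulAction.IsPreprimitive.of_card_lt (f := ι) ?_
    have hrange : (Set.range ι).ncard = q := by
      have : Set.range ι = (Y.support : Set β) := Subtype.range_coe_subtype
      rw [this, Set.ncard_coe_finset, hYq]
    rw [hrange, Nat.card_eq_fintype_card]
    exact h2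
  exact PermPrimes.alternatingGroup_le_of_primitive_pCycle H hprim hq h3 hYc hYq hY

section Via

variable {β γ : Type*}

theorem via_conj (ι : β ↪ γ) (c : Perm γ) (cI : Perm β) (hc : c * c = 1)
    (hcI : ∀ x, c (ι x) = ι (cI x)) (σ : Perm β) :
    c * Perm.viaEmbeddingHom ι σ * c = Perm.viaEmbeddingHom ι (cI * σ * cI) := by
  ext y
  simp only [Perm.mul_apply, Perm.viaEmbeddingHom_apply]
  by_cases hy : y ∈ Set.range ι
  · obtain ⟨x, rfl⟩ := hy
    rw [hcI, Perm.viaEmbedding_apply, hcI, Perm.viaEmbedding_apply]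
    rfl
  · rw [Perm.viaEmbedding_apply_of_notMem _ _ _ hy, Perm.viaEmbedding_apply_of_notMem]
    · exact Equiv.congr_fun hc y
    · rintro ⟨x, hx⟩
      exact hy ⟨cI x, by rw [← hcI, hx]; exact Equiv.congr_fun hc y⟩

variable [DecidableEq β] [DecidableEq γ]

theorem via_swap (ι : β ↪ γ) (a b : β) :
    Perm.viaEmbeddingHom ι (swap a b) = swap (ι a) (ι b) := by
  ext y
  rw [Perm.viaEmbeddingHom_apply]
  by_cases hy : y ∈ Set.range ι
  · obtain ⟨x, rfl⟩ := hy
    rw [Perm.viaEmbedding_apply, ι.injective.swap_apply]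
  · rw [Perm.viaEmbedding_apply_of_notMem _ _ _ hy, swap_apply_of_ne_of_ne
      (fun h => hy ⟨a, h.symm⟩) (fun h => hy ⟨b, h.symm⟩)]

theorem via_tri (ι : β ↪ γ) (a b i : β) :
    Perm.viaEmbeddingHom ι (tri a b i) = tri (ι a) (ι b) (ι i) := by
  rw [tri, map_mul, via_swap, via_swap]; rfl

theorem sign_via [Fintype β] [Fintype γ] (ι : β ↪ γ) (σ : Perm β) :
    Perm.sign (Perm.viaEmbeddingHom ι σ) = Perm.sign σ := by
  classical
  rw [Perm.viaEmbeddingHom_apply, Perm.viaEmbedding]
  convert Perm.sign_extendDomain σ (Equiv.ofInjective ι.1 ι.2)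

end Via

/-- The cycle type of an involution. -/
theorem cycleType_involution {β : Type*} [DecidableEq β] [Fintype β] {σ : Perm β} (h : σ * σ = 1) :
    σ.cycleType = Multiset.replicate (σ.support.card / 2) 2 := by
  have h2 : ∀ m ∈ σ.cycleType, m = 2 := fun m hm => by
    have h1 := Perm.dvd_of_mem_cycleType hm
    have h3 := Perm.two_le_of_mem_cycleType hm
    have h4 := Nat.le_of_dvd (by norm_num : 0 < 2) (h1.trans (orderOf_dvd_of_pow_eq_one (by rwa [pow_two])))
    omega
  have h5 := Multiset.eq_replicate_of_mem h2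
  have h6 := σ.sum_cycleType
  rw [h5, Multiset.sum_replicate, smul_eq_mul] at h6
  rw [← h6, Nat.mul_div_cancel _ (by norm_num : 0 < 2)]
  exact h5

/-- The parameters of the family. -/
structure Params where
  p : ℕ
  k : ℕ
  j : ℕ
  q : ℕ
  hp : p.Prime
  hq : q.Prime
  hj : 2 ≤ j
  hI : 2 * j + 2 + k ≤ p + 2
  hqI : q + 3 + k ≤ p + 2
  hq2 : p + 2 < 2 * q + k
  hqj : p + 2 ≤ q + j + k
  hndvd : ¬ q ∣ p - 1

namespace Params

variable (c : Params)

/-- The degree. -/
abbrev n : ℕ := c.p + 2 + c.k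

/-- The size of the overlap. -/
abbrev ov : ℕ := c.p + 2 - c.k

theorem facts : 2 * c.j + 2 ≤ c.ov ∧ c.ov + c.k = c.p + 2 ∧ c.n = c.p + 2 + c.k ∧ 2 ≤ c.j ∧
    c.q + 3 ≤ c.ov ∧ c.ov < 2 * c.q ∧ c.ov ≤ c.q + c.j := by
  have := c.hI; have := c.hqI; have := c.hq2; have := c.hqj; have := c.hj
  simp only [ov]
  refine ⟨?_, ?_, ?_, ?_, ?_, ?_, ?_⟩
  all_goals first | omega | trivial

/-- The involution as a function. -/
def cf (x : Fin c.n) : Fin c.n :=
  if h1 : x.val < c.j then ⟨x.val + (c.ov - c.j), by have := c.facts; omega⟩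
  else if h2 : x.val < c.ov - c.j then x
  else if h3 : x.val < c.ov then ⟨x.val - (c.ov - c.j), by omega⟩
  else if h4 : x.val < c.ov + c.k then ⟨x.val + c.k, by have := c.facts; omega⟩
  else ⟨x.val - c.k, by omega⟩

theorem cf_val (x : Fin c.n) : (c.cf x).val = if x.val < c.j then x.val + (c.ov - c.j)
    else if x.val < c.ov - c.j then x.val else if x.val < c.ov then x.val - (c.ov - c.j)
    else if x.val < c.ov + c.k then x.val + c.k else x.val - c.k := by
  unfold cf; split_ifs <;> rfl

theorem cf_invol : Function.Involutive c.cf := by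
  intro x
  have := c.facts
  have := x.isLt
  apply Fin.ext
  rw [c.cf_val (c.cf x), c.cf_val x]
  repeat' split_ifs
  all_goals omega

/-- The involution. -/
def C : Perm (Fin c.n) := c.cf_invol.toPerm

theorem C_apply (x : Fin c.n) : c.C x = c.cf x := rfl

theorem C_sq : c.C * c.C = 1 := Equiv.ext fun x => c.cf_invol x

theorem C_inv : c.C⁻¹ = c.C := inv_eq_of_mul_eq_one_right c.C_sq

/-- The first set. -/
def Yset : Finset (Fin c.n) := Finset.univ.filter fun x => x.val < c.p + 2

theorem mem_Yset (x : Fin c.n) : x ∈ c.Yset ↔ x.val < c.p + 2 := by simp [Yset]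

theorem mem_inner (x : Fin c.n) : x ∈ c.Yset.filter (fun y => c.C y ∈ c.Yset) ↔ x.val < c.ov := by
  have := c.facts
  have := x.isLt
  rw [Finset.mem_filter, c.mem_Yset, c.mem_Yset, c.C_apply, c.cf_val]
  repeat' split_ifs
  all_goals omega

/-- The overlap's embedding. -/
def emb : Fin c.ov ↪ Fin c.n := ⟨fun i => ⟨i.val, Nat.lt_of_lt_of_le i.isLt (by have := c.facts; omega)⟩, fun i i' h => Fin.ext (by simpa using h)⟩

theorem emb_val (x : Fin c.ov) : (c.emb x).val = x.val := rfl

theorem C_emb_lt (x : Fin c.ov) : (c.C (c.emb x)).val < c.ov := by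
  have := c.facts
  have := x.isLt
  rw [c.C_apply, c.cf_val, c.emb_val]
  repeat' split_ifs
  all_goals omega

/-- The involution on the overlap as a function. -/
def cfI (x : Fin c.ov) : Fin c.ov := ⟨(c.C (c.emb x)).val, c.C_emb_lt x⟩

theorem emb_cfI (x : Fin c.ov) : c.emb (c.cfI x) = c.C (c.emb x) := Fin.ext rfl

theorem cfI_invol : Function.Involutive c.cfI := fun x => c.emb.injective (by
  rw [c.emb_cfI, c.emb_cfI]
  exact Equiv.congr_fun c.C_sq (c.emb x))

/-- The involution on the overlap. -/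
def cI : Perm (Fin c.ov) :=
  Function.Involutive.toPerm c.cfI c.cfI_invol

theorem C_emb (x : Fin c.ov) : c.C (c.emb x) = c.emb (c.cI x) := (c.emb_cfI x).symm

theorem cI_sq : c.cI * c.cI = 1 := Equiv.ext fun x => c.emb.injective (by
  rw [Perm.mul_apply, ← c.C_emb, ← c.C_emb]
  exact Equiv.congr_fun c.C_sq (c.emb x))

theorem q_pos : 1 ≤ c.q := c.hq.one_le

/-- The long cycle on the overlap. -/
def vI : Perm (Fin c.ov) := Fin.cycleRange ⟨c.q - 1, by have := c.facts; omega⟩

theorem vI_isCycle : c.vI.IsCycle := by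
  have : NeZero c.ov := ⟨by have := c.facts; omega⟩
  refine Fin.isCycle_cycleRange fun h => ?_
  have := congrArg Fin.val h
  simp only [Fin.val_zero] at this
  have := c.hq.two_le
  omega

theorem vI_supp : c.vI.support.card = c.q := by
  have : NeZero c.ov := ⟨by have := c.facts; omega⟩
  have h := Fin.cycleType_cycleRange (i := (⟨c.q - 1, by have := c.facts; omega⟩ : Fin c.ov)) (fun h => by
    have := congrArg Fin.val h
    simp only [Fin.val_zero] at this
    have := c.hq.two_le
    omega)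
  rw [← Perm.sum_cycleType]
  show (Fin.cycleRange _).cycleType.sum = c.q
  rw [h, Multiset.sum_singleton]
  have := c.q_pos
  simp only
  omega

theorem vI_order : orderOf c.vI = c.q := by rw [c.vI_isCycle.orderOf, c.vI_supp]

theorem vI_sign : Perm.sign c.vI = 1 := by
  have h := c.vI_isCycle.sign
  rw [c.vI_supp] at h
  rw [h, (c.hq.odd_of_ne_two (by have := c.hq2; have := c.hqI; have := c.hj; have := c.facts; omega)).neg_one_pow, neg_neg]

theorem mem_vI_supp (x : Fin c.ov) : x ∈ c.vI.support ↔ x.val < c.q := by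
  have : NeZero c.ov := ⟨by have := c.facts; omega⟩
  have hsub : c.vI.support ⊆ Finset.univ.filter fun y : Fin c.ov => y.val < c.q := by
    intro y hy
    rw [Finset.mem_filter]
    refine ⟨Finset.mem_univ _, ?_⟩
    by_contra h
    refine Perm.mem_support.1 hy (Fin.cycleRange_of_gt ?_)
    have := c.q_pos
    rw [Fin.lt_def]
    simp only
    omega
  have hcard : (Finset.univ.filter fun y : Fin c.ov => y.val < c.q).card ≤ c.q := by
    refine (Finset.card_le_card_of_injOn Fin.val (t := Finset.range c.q) ?_ Fin.val_injective.injOn).trans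
      (Finset.card_range _).le
    intro y hy
    simp only [Finset.coe_filter, Set.mem_setOf_eq] at hy
    exact Finset.mem_range.2 hy.2
  rw [Finset.eq_of_subset_of_card_le hsub (hcard.trans c.vI_supp.ge), Finset.mem_filter]
  simp

/-- The overlap generator. -/
noncomputable def v : Perm (Fin c.n) := Perm.viaEmbeddingHom c.emb c.vI

theorem conj_v : c.C * c.v * c.C = Perm.viaEmbeddingHom c.emb (c.cI * c.vI * c.cI) :=
  via_conj c.emb c.C c.cI c.C_sq c.C_emb c.vI

theorem via_mem (σ : Perm (Fin c.ov)) (hσ : Perm.sign σ = 1) :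
    Perm.viaEmbeddingHom c.emb σ ∈ altOn c.Yset := by
  refine ⟨by rw [sign_via, hσ], fun x hx => ?_⟩
  rw [Perm.viaEmbeddingHom_apply]
  refine Perm.viaEmbedding_apply_of_notMem _ _ _ ?_
  rintro ⟨i, rfl⟩
  refine hx ((c.mem_Yset _).2 ?_)
  have := i.isLt
  have := c.facts
  rw [c.emb_val]
  omega

theorem hgen : altOn (c.Yset.filter fun x => c.C x ∈ c.Yset) ≤
    Subgroup.closure {c.v, c.C * c.v * c.C} := by
  have := c.facts; have := c.hj; have := c.hqI; have := c.hqj
  set K := Subgroup.closure ({c.vI, c.cI * c.vI * c.cI} : Set (Perm (Fin c.ov)))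
  have hvK : c.vI ∈ K := Subgroup.subset_closure (by simp)
  have hwK : c.cI * c.vI * c.cI ∈ K := Subgroup.subset_closure (by simp)
  have hci : c.cI⁻¹ = c.cI := inv_eq_of_mul_eq_one_right c.cI_sq
  have hwc : (c.cI * c.vI * c.cI).IsCycle := by
    have := c.vI_isCycle.conj (g := c.cI)
    rwa [hci] at this
  have hws : ∀ x, x ∈ (c.cI * c.vI * c.cI).support ↔ (c.cI x).val < c.q := fun x => by
    rw [← c.mem_vI_supp]
    simp only [Perm.mem_support, Perm.mul_apply]
    have hcc : ∀ z, c.cI (c.cI z) = z := fun z => Equiv.congr_fun c.cI_sq z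
    constructor
    · intro h h'; exact h (by rw [h', hcc])
    · intro h h'; exact h (by rw [← hcc (c.vI (c.cI x)), h'])
  have hA : alternatingGroup (Fin c.ov) ≤ K := by
    refine alt_le_of_big_cycle K c.hq c.vI_isCycle c.vI_supp hvK ?_ ?_ ?_
    · rw [Fintype.card_fin]; have := c.hq2; omega
    · rw [Fintype.card_fin]; omega
    · intro i
      by_cases hi : i.val < c.q
      · exact ⟨1, one_mem _, i, (c.mem_vI_supp i).2 hi, rfl⟩
      · have hiw : i ∈ (c.cI * c.vI * c.cI).support := by
          rw [hws]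
          show (c.C (c.emb i)).val < c.q
          rw [c.C_apply, c.cf_val, c.emb_val]
          repeat' split_ifs
          all_goals omega
        obtain ⟨y, hy, hy'⟩ : ∃ y : Fin c.ov, y ∈ c.vI.support ∧ y ∈ (c.cI * c.vI * c.cI).support := by
          refine ⟨⟨c.j, by omega⟩, (c.mem_vI_supp _).2 (by have := c.hq2; simp only; omega), ?_⟩
          rw [hws]
          show (c.C (c.emb _)).val < c.q
          rw [c.C_apply, c.cf_val, c.emb_val]
          simp only
          have := c.hq2
          repeat' split_ifs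
          all_goals omega
        obtain ⟨l, hl⟩ := hwc.sameCycle (Perm.mem_support.1 hy') (Perm.mem_support.1 hiw)
        exact ⟨_, K.zpow_mem hwK l, y, hy, hl⟩
  refine (altOn_le_closure (a := c.emb ⟨0, by omega⟩) (b := c.emb ⟨1, by omega⟩)
    ((c.mem_inner _).2 (by rw [c.emb_val]; show _ < c.ov; omega)) ((c.mem_inner _).2 (by rw [c.emb_val]; show _ < c.ov; omega))
    (fun h => by simpa [Fin.ext_iff] using c.emb.injective h)).trans ((Subgroup.closure_le _).2 ?_)
  rintro _ ⟨i, hi, -, hib, rfl⟩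
  obtain ⟨i', rfl⟩ : ∃ i', c.emb i' = i := ⟨⟨i.val, (c.mem_inner i).1 hi⟩, rfl⟩
  rw [← via_tri]
  have hmem : tri (⟨0, by omega⟩ : Fin c.ov) ⟨1, by omega⟩ i' ∈ K :=
    hA (sign_tri (by simp [Fin.ext_iff]) (fun h => hib (by rw [← h])))
  have := Subgroup.mem_map_of_mem (Perm.viaEmbeddingHom c.emb) hmem
  rw [MonoidHom.map_closure, Set.image_insert_eq, Set.image_singleton, ← c.conj_v] at this
  exact this

/-- The points of the crossing element. -/
def eM : Fin (c.k + c.j) ↪ Fin c.n :=
  ⟨fun t => if h : t.val < c.j then ⟨t.val, by have := c.facts; omega⟩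
    else ⟨c.ov + (t.val - c.j), by have := c.facts; omega⟩, fun t t' h => by
    have := c.facts
    apply Fin.ext
    dsimp only at h
    split_ifs at h <;> simp only [Fin.ext_iff] at h <;> omega⟩

theorem eM_val (t : Fin (c.k + c.j)) :
    (c.eM t).val = if t.val < c.j then t.val else c.ov + (t.val - c.j) := by
  show (dite (t.val < c.j) _ _ : Fin c.n).val = _
  split_ifs with h <;> rfl

theorem neZero_M : NeZero (c.k + c.j) := ⟨by have := c.hj; omega⟩

/-- Rotation of the crossing points. -/
noncomputable def R : Perm (Fin c.n) :=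
  haveI := c.neZero_M
  Perm.viaEmbeddingHom c.eM (Equiv.addRight 1)

theorem R_pow_eM (l : ℕ) (t : Fin (c.k + c.j)) :
    (c.R ^ l) (c.eM t) = c.eM ⟨(t.val + l) % (c.k + c.j), Nat.mod_lt _ (by have := c.hj; omega)⟩ := by
  haveI := c.neZero_M
  induction l with
  | zero => simp [Nat.mod_eq_of_lt t.isLt]
  | succ l ih =>
    rw [pow_succ', Perm.mul_apply, ih, R, Perm.viaEmbeddingHom_apply, Perm.viaEmbedding_apply]
    refine congrArg c.eM (Fin.ext ?_)
    rw [Equiv.coe_addRight, Fin.val_add, Fin.val_one', Nat.add_mod_mod, ← add_assoc, Nat.mod_add_mod]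

theorem R_pow_other (l : ℕ) {x : Fin c.n} (hx : ∀ t, c.eM t ≠ x) : (c.R ^ l) x = x := by
  haveI := c.neZero_M
  rw [R, ← map_pow, Perm.viaEmbeddingHom_apply]
  exact Perm.viaEmbedding_apply_of_notMem _ _ _ fun ⟨t, ht⟩ => hx t ht

theorem R_pow_M : c.R ^ (c.k + c.j) = 1 := by
  ext x
  by_cases h : ∃ t, c.eM t = x
  · obtain ⟨t, rfl⟩ := h
    rw [c.R_pow_eM, Perm.one_apply]
    exact congrArg (fun s => (c.eM s).val) (Fin.ext (by simp [Nat.mod_eq_of_lt t.isLt]))
  · push Not at h
    rw [c.R_pow_other _ h, Perm.one_apply]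

theorem eM_notin (l : ℕ) {x : Fin c.n} (hx : c.j ≤ x.val) (hx' : x.val < c.ov ∨ c.p + 2 ≤ x.val) :
    (c.R ^ l) x = x :=
  c.R_pow_other l fun t h => by
    have h' := congrArg Fin.val h
    have := t.isLt
    have := c.facts
    rw [c.eM_val] at h'
    split_ifs at h' <;> omega

theorem R_even_mem (l : ℕ) : c.R ^ (2 * l) ∈ altOn c.Yset := by
  refine ⟨?_, fun x hx => c.eM_notin _ ?_ (Or.inr ?_)⟩
  · rw [mul_comm, pow_mul, pow_two, map_mul, Int.units_mul_self]
  all_goals rw [c.mem_Yset] at hx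
  · have := c.facts; omega
  · omega

/-- The crossing element. -/
noncomputable def g : Perm (Fin c.n) := c.R ^ 2

theorem g_mem : c.g ∈ altOn c.Yset := c.R_even_mem 1

theorem disjoint_R (l l' : ℕ) : Perm.Disjoint (c.R ^ l) (c.C * c.R ^ l' * c.C) := by
  intro x
  have := c.facts
  have := x.isLt
  by_cases h : c.j ≤ x.val ∧ (x.val < c.ov ∨ c.p + 2 ≤ x.val)
  · exact Or.inl (c.eM_notin _ h.1 h.2)
  · refine Or.inr ?_
    rw [Perm.mul_apply, Perm.mul_apply, c.eM_notin l']
    · exact Equiv.congr_fun c.C_sq x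
    all_goals rw [c.C_apply, c.cf_val]
    all_goals repeat' split_ifs
    all_goals omega

theorem cross_mem (T : Set (Perm (Fin c.n)))
    (hT : ∀ σ ∈ altOn (Finset.univ.filter fun x : Fin c.n => x.val < c.ov - c.j), σ ∈ T)
    (i : Fin c.n) (hi : c.ov ≤ i.val) (hi' : i.val < c.p + 2) :
    tri (⟨0, by have := c.facts; omega⟩ : Fin c.n) ⟨1, by have := c.facts; omega⟩ i ∈
      Subgroup.closure (insert c.g T) := by
  have := c.facts; have := c.hj
  set U := Finset.univ.filter fun x : Fin c.n => x.val < c.ov - c.j with hU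
  have hmemU : ∀ x, x ∈ U ↔ x.val < c.ov - c.j := by simp [hU]
  set K := Subgroup.closure (insert c.g T) with hK
  have hgK : c.g ∈ K := Subgroup.subset_closure (Set.mem_insert _ _)
  set u : Fin c.n := ⟨c.j, by omega⟩ with hu
  set u' : Fin c.n := ⟨c.j + 1, by omega⟩ with hu'
  have huu : u ≠ u' := by simp [hu, hu', Fin.ext_iff]
  have huU : u ∈ U := (hmemU _).2 (by simp only [hu]; omega)
  have hu'U : u' ∈ U := (hmemU _).2 (by simp only [hu']; omega)
  have hgu : c.g u = u := c.eM_notin 2 (by simp [hu]) (Or.inl (by simp only [hu]; omega))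
  have hgu' : c.g u' = u' := c.eM_notin 2 (by simp [hu']) (Or.inl (by simp only [hu']; omega))
  have base : ∀ x ∈ U, x ≠ u' → tri u u' x ∈ K := fun x hx hne =>
    Subgroup.subset_closure (Set.mem_insert_of_mem _ (hT _ (tri_mem_altOn huU hu'U hx huu hne.symm)))
  have hall : ∀ l, ∀ t : Fin (c.k + c.j), t.val = l → tri u u' (c.eM t) ∈ K := by
    intro l
    induction l using Nat.strong_induction_on with
    | _ l ih =>
      intro t ht
      by_cases h2 : l < 2
      · have hv : (c.eM t).val = l := by rw [c.eM_val, if_pos (by omega), ht]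
        refine base _ ((hmemU _).2 (by omega)) fun h => ?_
        have := congrArg Fin.val h
        simp only [hu'] at this
        omega
      · have hlt : l - 2 < c.k + c.j := by omega
        have h := ih (l - 2) (by omega) ⟨l - 2, hlt⟩ rfl
        have h' := K.mul_mem (K.mul_mem hgK h) (K.inv_mem hgK)
        rw [conj_tri, hgu, hgu', show c.g (c.eM ⟨l - 2, hlt⟩) = c.eM t by
          rw [g, c.R_pow_eM]
          refine congrArg c.eM (Fin.ext ?_)
          simp only
          rw [show l - 2 + 2 = t.val by omega, Nat.mod_eq_of_lt t.isLt]] at h'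
        exact h'
  obtain ⟨t, rfl⟩ : ∃ t, c.eM t = i := ⟨⟨i.val - c.ov + c.j, by omega⟩, Fin.ext (by
    rw [c.eM_val, if_neg (by simp only; omega)]
    simp only
    omega)⟩
  have hle : altOn (insert (c.eM t) U) ≤ K := by
    refine (altOn_le_closure (Finset.mem_insert_of_mem huU) (Finset.mem_insert_of_mem hu'U) huu).trans
      ((Subgroup.closure_le _).2 ?_)
    rintro _ ⟨x, hx, -, hxb, rfl⟩
    rcases Finset.mem_insert.1 hx with rfl | hx
    · exact hall _ t rfl
    · exact base x hx hxb
  refine hle (tri_mem_altOn (Finset.mem_insert_of_mem ((hmemU _).2 (by simp only; omega)))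
    (Finset.mem_insert_of_mem ((hmemU _).2 (by simp only; omega))) (Finset.mem_insert_self _ _)
    (by simp [Fin.ext_iff]) fun h => ?_)
  have h' := congrArg Fin.val h
  simp only at h'
  omega

theorem C_support_card : c.C.support.card = 2 * (c.k + c.j) := by
  have := c.facts
  have hfix : ∀ x : Fin c.n, c.C x = x ↔ c.j ≤ x.val ∧ x.val < c.ov - c.j := by
    intro x
    have := x.isLt
    rw [c.C_apply, Fin.ext_iff, c.cf_val]
    have hk : ∀ _ : c.ov ≤ x.val, 1 ≤ c.k := fun h => by omega
    repeat' split_ifs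
    all_goals omega
  have h : c.C.supportᶜ.card = c.ov - 2 * c.j := by
    refine (Finset.card_bij' (t := Finset.Ico c.j (c.ov - c.j)) (fun x _ => x.val)
      (fun y hy => (⟨y, by rw [Finset.mem_Ico] at hy; omega⟩ : Fin c.n)) ?_ ?_ ?_ ?_).trans ?_
    · intro x hx
      rw [Finset.mem_compl, Perm.mem_support, not_not, hfix] at hx
      exact Finset.mem_Ico.2 hx
    · intro y hy
      rw [Finset.mem_Ico] at hy
      rw [Finset.mem_compl, Perm.mem_support, not_not, hfix]
      exact hy
    · intros; rfl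
    · intros; rfl
    · rw [Nat.card_Ico]; omega
  rw [Finset.card_compl, Fintype.card_fin] at h
  have := Finset.card_le_univ c.C.support
  rw [Fintype.card_fin] at this
  omega

theorem sign_C : Perm.sign c.C = (-1) ^ (c.k + c.j) := by
  rw [Perm.sign_of_cycleType, cycleType_involution c.C_sq, c.C_support_card, Multiset.sum_replicate,
    Multiset.card_replicate, Nat.mul_div_cancel_left _ (by norm_num : 0 < 2), smul_eq_mul,
    pow_add, mul_comm (c.k + c.j) 2, pow_mul, neg_one_sq, one_pow, one_mul]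

/-- The involution in the crossing cyclic group. -/
noncomputable def f : Perm (Fin c.n) := if 4 ∣ c.k + c.j then c.R ^ (2 * ((c.k + c.j) / 4)) else 1

theorem f_mem : c.f ∈ altOn c.Yset := by
  unfold f; split_ifs
  · exact c.R_even_mem _
  · exact one_mem _

theorem f_sq : c.f * c.f = 1 := by
  unfold f; split_ifs with h
  · rw [← pow_add, show 2 * ((c.k + c.j) / 4) + 2 * ((c.k + c.j) / 4) = c.k + c.j by omega, c.R_pow_M]
  · exact one_mul _

theorem f_pow : ∃ l : ℕ, c.f = c.g ^ l := by
  unfold f; split_ifs with h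
  · exact ⟨(c.k + c.j) / 4, by rw [g, ← pow_mul]⟩
  · exact ⟨0, (pow_zero _).symm⟩

theorem f_conj (h : 4 ∣ c.k + c.j) :
    ∃ x ∈ alternatingGroup (Fin c.n), x * (c.f * (c.C * c.f * c.C)) * x⁻¹ = c.C := by
  have := c.facts; have := c.hj
  have hf : c.f = c.R ^ (2 * ((c.k + c.j) / 4)) := if_pos h
  have hsupp : c.f.support.card = c.k + c.j := by
    have he : c.f.support = Finset.univ.map c.eM := by
      ext x
      rw [Perm.mem_support, Finset.mem_map]
      constructor
      · intro hx
        by_contra hne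
        simp only [Finset.mem_univ, true_and, not_exists] at hne
        exact hx (by rw [hf]; exact c.R_pow_other _ hne)
      · rintro ⟨t, -, rfl⟩ e
        rw [hf, c.R_pow_eM] at e
        have e' := congrArg Fin.val (c.eM.injective e)
        simp only at e'
        have := t.isLt
        rcases lt_or_ge (t.val + 2 * ((c.k + c.j) / 4)) (c.k + c.j) with hl | hl
        · rw [Nat.mod_eq_of_lt hl] at e'; omega
        · rw [Nat.mod_eq_sub_mod hl, Nat.mod_eq_of_lt (by omega)] at e'; omega
    rw [he, Finset.card_map, Finset.card_univ, Fintype.card_fin]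
  have hd : Perm.Disjoint c.f (c.C * c.f * c.C) := hf ▸ c.disjoint_R _ _
  have hct : (c.f * (c.C * c.f * c.C)).cycleType = c.C.cycleType := by
    have hc : (c.C * c.f * c.C).cycleType = c.f.cycleType := by
      have := Perm.cycleType_conj (σ := c.f) (τ := c.C)
      rwa [c.C_inv] at this
    rw [hd.cycleType_mul, hc, cycleType_involution c.f_sq, cycleType_involution c.C_sq, hsupp,
      c.C_support_card, ← Multiset.replicate_add]
    congr 1
    omega
  obtain ⟨x, hx⟩ := isConj_iff.1 (Perm.isConj_iff_cycleType_eq.2 hct)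
  rcases Int.units_eq_one_or (Perm.sign x) with hs | hs
  · exact ⟨x, hs, hx⟩
  · let a : Fin c.n := ⟨0, by omega⟩
    have hne : a ≠ c.C a := fun e => by
      have e' := congrArg Fin.val e
      rw [c.C_apply, c.cf_val] at e'
      simp only [a] at e'
      split_ifs at e' <;> omega
    have hcomm : swap a (c.C a) * c.C * (swap a (c.C a))⁻¹ = c.C := by
      rw [mul_inv_eq_iff_eq_mul, Equiv.mul_swap_eq_swap_mul,
        show c.C (c.C a) = a from Equiv.congr_fun c.C_sq a, Equiv.swap_comm]
    refine ⟨swap a (c.C a) * x, ?_, ?_⟩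
    · rw [Perm.mem_alternatingGroup, map_mul, hs, Perm.sign_swap hne]; rfl
    · rw [show swap a (c.C a) * x * (c.f * (c.C * c.f * c.C)) * (swap a (c.C a) * x)⁻¹ =
        swap a (c.C a) * (x * (c.f * (c.C * c.f * c.C)) * x⁻¹) * (swap a (c.C a))⁻¹ by group, hx, hcomm]

/-- The presentation data of the family. -/
noncomputable def data (hc : Perm.sign c.C = -1 ∨ 4 ∣ c.k + c.j) : PresData (Fin c.n) where
  Y := c.Yset
  c0 := c.C
  v := c.v
  g1 := c.g
  g := c.g
  a := ⟨0, by have := c.facts; omega⟩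
  b := ⟨1, by have := c.facts; omega⟩
  d := ⟨c.ov - c.j, by have := c.facts; omega⟩
  e := ⟨c.ov - c.j + 1, by have := c.facts; omega⟩
  c0_sq := c.C_sq
  cover := fun x => by
    have := c.facts
    have := x.isLt
    rw [c.mem_Yset, c.mem_Yset, c.C_apply, c.cf_val]
    repeat' split_ifs
    all_goals omega
  ha := Finset.mem_filter.1 ((c.mem_inner _).2 (by have := c.facts; simp only; omega))
  hb := Finset.mem_filter.1 ((c.mem_inner _).2 (by have := c.facts; simp only; omega))
  hd := Finset.mem_filter.1 ((c.mem_inner _).2 (by have := c.facts; have := c.hj; simp only; omega))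
  he := Finset.mem_filter.1 ((c.mem_inner _).2 (by have := c.facts; have := c.hj; simp only; omega))
  hab := by simp [Fin.ext_iff]
  hde := by simp [Fin.ext_iff]
  had := by have := c.facts; simp [Fin.ext_iff]; omega
  hae := by simp [Fin.ext_iff]
  hbd := by have := c.facts; simp [Fin.ext_iff]; omega
  hbe := by have := c.facts; simp [Fin.ext_iff]; omega
  hv := c.via_mem _ c.vI_sign
  hv' := by
    rw [c.conj_v]
    refine c.via_mem _ ?_
    rw [map_mul, map_mul, c.vI_sign, mul_one, Int.units_mul_self]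
  hgen := c.hgen
  hg1 := c.g_mem
  hg := c.g_mem
  hA := fun i hi hi' => by
    have h1 : c.ov ≤ i.val := Nat.le_of_not_lt fun h => hi' (Finset.mem_filter.1 ((c.mem_inner i).2 h)).2
    refine c.cross_mem {σ | σ ∈ altOn (c.Yset.filter fun x => c.C x ∈ c.Yset) ∧ Commute σ (c.C * c.g * c.C)}
      (fun σ hσ => ⟨altOn_mono ?_ hσ, ?_⟩) i h1 ((c.mem_Yset _).1 hi)
    · intro x hx
      rw [c.mem_inner]
      simp only [Finset.mem_filter] at hx
      omega
    · refine Perm.Disjoint.commute fun x => ?_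
      by_cases hx : x.val < c.ov - c.j
      · refine Or.inr ?_
        rw [g, Perm.mul_apply, Perm.mul_apply, c.eM_notin 2]
        · exact Equiv.congr_fun c.C_sq x
        all_goals have := c.facts
        all_goals rw [c.C_apply, c.cf_val]
        all_goals repeat' split_ifs
        all_goals omega
      · exact Or.inl (hσ.2 x (by simpa using hx))
  hB := fun i hi hi' => by
    have h1 : c.ov ≤ i.val := Nat.le_of_not_lt fun h => hi' (Finset.mem_filter.1 ((c.mem_inner i).2 h)).2
    have := c.facts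
    have := c.hj
    have e1 : c.C (⟨c.ov - c.j, by omega⟩ : Fin c.n) = ⟨0, by omega⟩ := Fin.ext (by
      rw [c.C_apply, c.cf_val]
      simp only
      repeat' split_ifs
      all_goals omega)
    have e2 : c.C (⟨c.ov - c.j + 1, by omega⟩ : Fin c.n) = ⟨1, by omega⟩ := Fin.ext (by
      rw [c.C_apply, c.cf_val]
      simp only
      repeat' split_ifs
      all_goals omega)
    rw [e1, e2]
    refine c.cross_mem {σ | σ ∈ altOn (c.Yset.filter fun x => c.C x ∈ c.Yset) ∧
      σ (c.C ⟨0, by omega⟩) = c.C ⟨0, by omega⟩ ∧ σ (c.C ⟨1, by omega⟩) = c.C ⟨1, by omega⟩}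
      (fun σ hσ => ⟨altOn_mono ?_ hσ, ?_, ?_⟩) i h1 ((c.mem_Yset _).1 hi)
    · intro x hx
      rw [c.mem_inner]
      simp only [Finset.mem_filter] at hx
      omega
    all_goals
      refine hσ.2 _ ?_
      simp only [Finset.mem_filter, Finset.mem_univ, true_and, c.C_apply, c.cf_val]
      repeat' split_ifs
      all_goals omega
  p := c.p
  hp := c.hp
  hp3 := by have := c.facts; have := c.hj; omega
  P := fun i => ⟨2 + i.val, by have := c.hp.pos; haveI : NeZero c.p := ⟨this.ne'⟩; have := i.val_lt; have := c.facts; omega⟩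
  o1 := ⟨0, by have := c.facts; omega⟩
  o2 := ⟨1, by have := c.facts; omega⟩
  hP := fun i i' h => by
    haveI : NeZero c.p := ⟨c.hp.ne_zero⟩
    exact ZMod.val_injective c.p (by simpa using h)
  ho := by simp [Fin.ext_iff]
  ho1 := fun i => by simp [Fin.ext_iff]
  ho2 := fun i => by simp [Fin.ext_iff]; omega
  hY := fun x => by
    haveI : NeZero c.p := ⟨c.hp.ne_zero⟩
    rw [c.mem_Yset]
    constructor
    · intro hx
      by_cases h0 : x.val = 0
      · exact Or.inl (Fin.ext h0)
      by_cases h1 : x.val = 1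
      · exact Or.inr (Or.inl (Fin.ext h1))
      refine Or.inr (Or.inr ⟨((x.val - 2 : ℕ) : ZMod c.p), Fin.ext ?_⟩)
      simp only [ZMod.val_natCast, Nat.mod_eq_of_lt (show x.val - 2 < c.p by omega)]
      omega
    · have := c.hp.pos
      rintro (rfl | rfl | ⟨i, rfl⟩)
      · simp only; omega
      · simp only; omega
      · have := i.val_lt; simp only; omega
  hcop := by
    rw [show orderOf c.v = c.q from (orderOf_injective _ (Perm.viaEmbeddingHom_injective _) _).trans c.vI_order]
    exact (c.hq.coprime_iff_not_dvd).2 c.hndvd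
  hcomm := (c.disjoint_R 2 2).commute
  f1 := c.f
  f2 := c.f
  hf1 := c.f_mem
  hf2 := c.f_mem
  hf1s := c.f_sq
  hf2s := c.f_sq
  hfp := Or.inl ⟨c.f_pow, c.f_pow⟩
  hconj := fun h => by
    rcases hc with h' | h'
    · rw [h] at h'; exact absurd h' (by decide)
    · exact c.f_conj h'

theorem has_sym (h : Odd (c.k + c.j)) : HasSym (Fin c.n) :=
  (c.data (Or.inl (by rw [c.sign_C, h.neg_one_pow]))).has37_sym (by
    change Perm.sign c.C = -1
    rw [c.sign_C, h.neg_one_pow])

theorem has_alt (h : 4 ∣ c.k + c.j) : HasAlt (Fin c.n) :=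
  (c.data (Or.inr h)).has37_alt (by
    change Perm.sign c.C = 1
    rw [c.sign_C, (Even.neg_one_pow (by obtain ⟨m, hm⟩ := h; exact ⟨2 * m, by omega⟩))])

end Params

end CfsgLib.AltPres54
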