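import Mathlib

/-!
Changing the generators of a finite presentation.
-/

set_option autoImplicit false

namespace CfsgLib.AltPres54

/-- A presentation carried to other generators costs one relator for each new generator which is
not an old one. -/
theorem change_gens {m l : ℕ} {G : Type*} [Group G] (R : Finset (FreeGroup (Fin m)))
    (e : PresentedGroup (↑R : Set (FreeGroup (Fin m))) ≃* G) (b : Fin l → G)
    (w : Fin m → FreeGroup (Fin l)) (hw : ∀ j, FreeGroup.lift b (w j) = e (PresentedGroup.of j))
    (t : Fin l → FreeGroup (Fin m)) (ht : ∀ i, e (PresentedGroup.mk _ (t i)) = b i)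
    (S : Finset (Fin l)) (hS : ∀ i ∉ S, FreeGroup.lift w (t i) = FreeGroup.of i) :
    ∃ R' : Finset (FreeGroup (Fin l)), R'.card ≤ R.card + S.card ∧
      ∃ e' : PresentedGroup (↑R' : Set (FreeGroup (Fin l))) ≃* G,
        ∀ i, e' (PresentedGroup.of i) = b i := by
  classical
  set σ := FreeGroup.lift w with hσ
  set R' := R.image σ ∪ S.image (fun i => (FreeGroup.of i)⁻¹ * σ (t i)) with hR'
  refine ⟨R', (Finset.card_union_le _ _).trans (Nat.add_le_add Finset.card_image_le
    Finset.card_image_le), ?_⟩
  have hcomp : ∀ r, FreeGroup.lift b (σ r) = e (PresentedGroup.mk _ r) := by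
    have h : (FreeGroup.lift b).comp σ = e.toMonoidHom.comp (PresentedGroup.mk _) :=
      FreeGroup.ext_hom _ _ fun j => by
        simp only [MonoidHom.comp_apply, hσ, FreeGroup.lift_apply_of, hw]
        rfl
    exact DFunLike.congr_fun h
  have hsat : ∀ r ∈ (↑R' : Set (FreeGroup (Fin l))), FreeGroup.lift b r = 1 := by
    intro r hr
    rw [Finset.mem_coe, hR', Finset.mem_union, Finset.mem_image, Finset.mem_image] at hr
    rcases hr with ⟨r', hr', rfl⟩ | ⟨i, -, rfl⟩
    · rw [hcomp, PresentedGroup.one_of_mem (Finset.mem_coe.2 hr'), map_one]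
    · rw [map_mul, map_inv, hcomp, ht, FreeGroup.lift_apply_of, inv_mul_cancel]
  set f := PresentedGroup.toGroup hsat with hf
  have hback : ∀ r ∈ (↑R : Set (FreeGroup (Fin m))),
      FreeGroup.lift (fun j => PresentedGroup.mk (↑R' : Set (FreeGroup (Fin l))) (w j)) r = 1 := by
    intro r hr
    have h : (PresentedGroup.mk (↑R' : Set (FreeGroup (Fin l)))).comp σ =
        FreeGroup.lift (fun j => PresentedGroup.mk (↑R' : Set (FreeGroup (Fin l))) (w j)) :=
      FreeGroup.ext_hom _ _ fun j => by simp only [MonoidHom.comp_apply, hσ, FreeGroup.lift_apply_of]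
    rw [← h, MonoidHom.comp_apply]
    refine PresentedGroup.one_of_mem ?_
    rw [Finset.mem_coe, hR', Finset.mem_union]
    exact Or.inl (Finset.mem_image_of_mem _ (Finset.mem_coe.1 hr))
  set g := PresentedGroup.toGroup hback with hg
  have hgmk : ∀ r, g (PresentedGroup.mk _ r) =
      PresentedGroup.mk (↑R' : Set (FreeGroup (Fin l))) (σ r) := by
    have h : g.comp (PresentedGroup.mk _) = (PresentedGroup.mk (↑R' : Set (FreeGroup (Fin l)))).comp σ :=
      FreeGroup.ext_hom _ _ fun j => by
        simp only [MonoidHom.comp_apply, hσ, FreeGroup.lift_apply_of]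
        exact PresentedGroup.toGroup.of hback
    exact DFunLike.congr_fun h
  have h1 : (g.comp e.symm.toMonoidHom).comp f = MonoidHom.id _ := by
    refine PresentedGroup.ext fun i => ?_
    simp only [MonoidHom.comp_apply, MonoidHom.id_apply, hf, PresentedGroup.toGroup.of]
    rw [← ht, MulEquiv.toMonoidHom_eq_coe, MonoidHom.coe_coe, MulEquiv.symm_apply_apply, hgmk]
    by_cases hi : i ∈ S
    · have hmem : (FreeGroup.of i)⁻¹ * σ (t i) ∈ (↑R' : Set (FreeGroup (Fin l))) := by
        rw [Finset.mem_coe, hR', Finset.mem_union]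
        exact Or.inr (Finset.mem_image_of_mem _ hi)
      have h := PresentedGroup.one_of_mem hmem
      rw [map_mul, map_inv, inv_mul_eq_one] at h
      exact h.symm
    · rw [hS i hi]; rfl
  have h2 : f.comp g = e.toMonoidHom := by
    refine PresentedGroup.ext fun j => ?_
    simp only [MonoidHom.comp_apply, hg, PresentedGroup.toGroup.of]
    exact hw j
  refine ⟨MonoidHom.toMulEquiv f (g.comp e.symm.toMonoidHom) h1 ?_, fun i => ?_⟩
  · refine MonoidHom.ext fun x => ?_
    have := DFunLike.congr_fun h2 (e.symm x)
    simpa using this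
  · exact PresentedGroup.toGroup.of hsat

/-- Any generating family. -/
theorem change_all {m l : ℕ} {G : Type*} [Group G] (R : Finset (FreeGroup (Fin m)))
    (e : PresentedGroup (↑R : Set (FreeGroup (Fin m))) ≃* G) (b : Fin l → G)
    (hb : Subgroup.closure (Set.range b) = ⊤) :
    ∃ R' : Finset (FreeGroup (Fin l)), R'.card ≤ R.card + l ∧
      ∃ e' : PresentedGroup (↑R' : Set (FreeGroup (Fin l))) ≃* G,
        ∀ i, e' (PresentedGroup.of i) = b i := by
  classical
  rw [← FreeGroup.range_lift_eq_closure, MonoidHom.range_eq_top] at hb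
  choose w hw using fun j => hb (e (PresentedGroup.of j))
  choose t ht using fun i => PresentedGroup.mk_surjective (↑R : Set (FreeGroup (Fin m))) (e.symm (b i))
  obtain ⟨R', hR', e', he'⟩ := change_gens R e b w hw t (fun i => by rw [ht, MulEquiv.apply_symm_apply])
    Finset.univ (fun i hi => absurd (Finset.mem_univ i) hi)
  exact ⟨R', by simpa using hR', e', he'⟩

/-- Two generators of which the first is the image of the old generator `j0`. -/
theorem change_two {m : ℕ} {G : Type*} [Group G] (R : Finset (FreeGroup (Fin m)))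
    (e : PresentedGroup (↑R : Set (FreeGroup (Fin m))) ≃* G) (j0 : Fin m) (y : G)
    (hy : Subgroup.closure ({e (PresentedGroup.of j0), y} : Set G) = ⊤) :
    ∃ R' : Finset (FreeGroup (Fin 2)), R'.card ≤ R.card + 1 ∧
      Nonempty (PresentedGroup (↑R' : Set (FreeGroup (Fin 2))) ≃* G) := by
  classical
  set b : Fin 2 → G := ![e (PresentedGroup.of j0), y] with hb
  have hrange : Subgroup.closure (Set.range b) = ⊤ := by
    rw [hb, Matrix.range_cons, Matrix.range_cons, Matrix.range_empty, Set.union_empty,
      ← Set.insert_eq]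
    exact hy
  rw [← FreeGroup.range_lift_eq_closure, MonoidHom.range_eq_top] at hrange
  choose w hw using fun j => hrange (e (PresentedGroup.of j))
  choose t ht using fun i => PresentedGroup.mk_surjective (↑R : Set (FreeGroup (Fin m))) (e.symm (b i))
  obtain ⟨R', hR', e', -⟩ := change_gens R e b (Function.update w j0 (FreeGroup.of 0))
    (fun j => by
      by_cases hj : j = j0
      · subst hj; rw [Function.update_self, FreeGroup.lift_apply_of]; rfl
      · rw [Function.update_of_ne hj, hw])
    ![FreeGroup.of j0, t 1]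
    (fun i => by
      fin_cases i
      · rfl
      · exact (congrArg e (ht 1)).trans (MulEquiv.apply_symm_apply e _))
    {1}
    (fun i hi => by
      fin_cases i
      · exact (FreeGroup.lift_apply_of ..).trans (Function.update_self ..)
      · simp at hi)
  exact ⟨R', by simpa using hR', ⟨e'⟩⟩

end CfsgLib.AltPres54
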