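import Mathlib
import Cfsg.Agent.AltPres54.Carmichael

/-!
A three-cycle and one further permutation generate the symmetric and the alternating group.
-/

set_option autoImplicit false

open Equiv

namespace CfsgLib.AltPres54

variable {N : ℕ}

theorem tri_chain (hN : 2 ≤ N) (K : Subgroup (Perm (Fin (N + 1))))
    (h0 : tri (⟨0, by omega⟩ : Fin (N + 1)) ⟨1, by omega⟩ ⟨2, by omega⟩ ∈ K)
    (hstep : ∀ m : Fin (N + 1), 3 ≤ m.val → ∃ a b : Fin (N + 1), a.val < m.val ∧ b.val < m.val ∧
      a ≠ b ∧ tri a b m ∈ K) : alternatingGroup (Fin (N + 1)) ≤ K := by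
  have key : ∀ m, 3 ≤ m → m ≤ N + 1 →
      altOn (Finset.univ.filter fun x : Fin (N + 1) => x.val < m) ≤ K := by
    intro m hm
    induction m, hm using Nat.le_induction with
    | base =>
      intro _
      refine (altOn_le_closure (a := ⟨0, by omega⟩) (b := ⟨1, by omega⟩) (by simp) (by simp)
        (by simp [Fin.ext_iff])).trans ((Subgroup.closure_le _).2 ?_)
      rintro _ ⟨x, hx, hxa, hxb, rfl⟩
      simp only [Finset.mem_filter, Finset.mem_univ, true_and] at hx
      simp only [ne_eq, Fin.ext_iff] at hxa hxb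
      rw [show x = ⟨2, by omega⟩ from Fin.ext (show x.val = 2 by omega)]
      exact h0
    | succ m hm ih =>
      intro hle
      obtain ⟨a, b, ha, hb, hab, hK⟩ := hstep ⟨m, by omega⟩ hm
      simp only at ha hb
      refine (altOn_le_closure (a := a) (b := b) (by simp; omega) (by simp; omega) hab).trans
        ((Subgroup.closure_le _).2 ?_)
      rintro _ ⟨x, hx, hxa, hxb, rfl⟩
      simp only [Finset.mem_filter, Finset.mem_univ, true_and] at hx
      by_cases hxm : x.val = m
      · rw [show x = ⟨m, by omega⟩ from Fin.ext hxm]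
        exact hK
      · exact ih (by omega) (tri_mem_altOn (by simpa using ha) (by simpa using hb)
          (by simp; omega) hab (Ne.symm hxb))
  rw [← altOn_univ]
  refine le_trans (altOn_mono fun x _ => ?_) (key (N + 1) (by omega) le_rfl)
  have := x.isLt
  simp
  omega

/-- Fixing `0`, cycling the rest. -/
def cycTail (N : ℕ) : Perm (Fin (N + 1)) := Perm.decomposeFin.symm (0, finRotate N)

theorem cycTail_zero : cycTail N 0 = 0 := by
  rw [cycTail, Perm.decomposeFin_symm_apply_zero]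

theorem cycTail_val {x : Fin (N + 1)} (h1 : 1 ≤ x.val) (h2 : x.val < N) :
    (cycTail N x).val = x.val + 1 := by
  obtain ⟨M, rfl⟩ : ∃ M, N = M + 1 := ⟨N - 1, by omega⟩
  obtain ⟨i, rfl⟩ := Fin.eq_succ_of_ne_zero (i := x) (fun h => by rw [h] at h1; simp at h1)
  rw [cycTail, Perm.decomposeFin_symm_apply_succ, swap_self, Equiv.refl_apply, Fin.val_succ,
    Fin.val_succ]
  rw [coe_finRotate_of_ne_last]
  intro h
  rw [h] at h2
  simp at h2

theorem sign_cycTail : Perm.sign (cycTail N) = (-1) ^ (N - 1) := by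
  rw [cycTail, Perm.decomposeFin.symm_sign, if_pos rfl, one_mul, sign_finRotate]

theorem rot_generates (hN : 2 ≤ N) (K : Subgroup (Perm (Fin (N + 1))))
    (h0 : tri (⟨0, by omega⟩ : Fin (N + 1)) ⟨1, by omega⟩ ⟨2, by omega⟩ ∈ K)
    (hD : finRotate (N + 1) ∈ K) : alternatingGroup (Fin (N + 1)) ≤ K := by
  refine tri_chain hN K h0 fun m hm => ?_
  have key : ∀ i, ∀ hi : i + 2 < N + 1, tri (⟨i, by omega⟩ : Fin (N + 1)) ⟨i + 1, by omega⟩ ⟨i + 2, hi⟩ ∈ K := by
    intro i
    induction i with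
    | zero => exact fun _ => h0
    | succ i ih =>
      intro hi
      have h := K.mul_mem (K.mul_mem hD (ih (by omega))) (K.inv_mem hD)
      rw [conj_tri] at h
      have hv : ∀ (x : Fin (N + 1)) (hx : x.val < N), finRotate (N + 1) x = ⟨x.val + 1, by omega⟩ := fun x hx =>
        Fin.ext (coe_finRotate_of_ne_last (fun e => by rw [e] at hx; simp at hx))
      rw [hv _ (by simp only; omega), hv _ (by simp only; omega), hv _ (by simp only; omega)] at h
      exact h
  refine ⟨⟨m.val - 2, by omega⟩, ⟨m.val - 2 + 1, by omega⟩, by simp only; omega, by simp only; omega,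
    by simp [Fin.ext_iff], ?_⟩
  have h := key (m.val - 2) (by omega)
  rwa [show (⟨m.val - 2 + 2, by omega⟩ : Fin (N + 1)) = m from Fin.ext (by simp only; omega)] at h

theorem tail_generates (hN : 2 ≤ N) (K : Subgroup (Perm (Fin (N + 1))))
    (h0 : tri (⟨0, by omega⟩ : Fin (N + 1)) ⟨1, by omega⟩ ⟨2, by omega⟩ ∈ K)
    (hE : cycTail N ∈ K) : alternatingGroup (Fin (N + 1)) ≤ K := by
  refine tri_chain hN K h0 fun m hm => ?_
  have key : ∀ i, ∀ hi : i + 2 < N + 1, tri (⟨0, by omega⟩ : Fin (N + 1)) ⟨i + 1, by omega⟩ ⟨i + 2, hi⟩ ∈ K := by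
    intro i
    induction i with
    | zero => exact fun _ => h0
    | succ i ih =>
      intro hi
      have h := K.mul_mem (K.mul_mem hE (ih (by omega))) (K.inv_mem hE)
      rw [conj_tri] at h
      have hv : ∀ (x : Fin (N + 1)) (_ : 1 ≤ x.val) (hx' : x.val < N), cycTail N x = ⟨x.val + 1, by omega⟩ :=
        fun x hx hx' => Fin.ext (cycTail_val hx hx')
      rw [show cycTail N (⟨0, by omega⟩ : Fin (N + 1)) = ⟨0, by omega⟩ from cycTail_zero,
        hv ⟨i + 1, by omega⟩ (by simp only; omega) (by simp only; omega),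
        hv ⟨i + 2, by omega⟩ (by simp only; omega) (by simp only; omega)] at h
      exact h
  refine ⟨⟨0, by omega⟩, ⟨m.val - 2 + 1, by omega⟩, by simp only; omega, by simp only; omega,
    by simp [Fin.ext_iff], ?_⟩
  have h := key (m.val - 2) (by omega)
  rwa [show (⟨m.val - 2 + 2, by omega⟩ : Fin (N + 1)) = m from Fin.ext (by simp only; omega)] at h

/-- A partner for a three-cycle, of prescribed sign. -/
theorem exists_partner (hN : 2 ≤ N) {z : Perm (Fin (N + 1))} (hz : z.IsThreeCycle) (ε : ℤˣ) :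
    ∃ y : Perm (Fin (N + 1)), Perm.sign y = ε ∧
      alternatingGroup (Fin (N + 1)) ≤ Subgroup.closure {z, y} := by
  have ht : (tri (⟨0, by omega⟩ : Fin (N + 1)) ⟨1, by omega⟩ ⟨2, by omega⟩).IsThreeCycle := by
    rw [tri, swap_comm _ (⟨1, by omega⟩ : Fin (N + 1))]
    exact Perm.isThreeCycle_swap_mul_swap_same (by simp [Fin.ext_iff]) (by simp [Fin.ext_iff])
      (by simp [Fin.ext_iff])
  obtain ⟨x, hx⟩ := isConj_iff.1 (Perm.isConj_iff_cycleType_eq.2 (hz.cycleType.trans ht.cycleType.symm))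
  obtain ⟨y0, hy0, hgen⟩ : ∃ y0 : Perm (Fin (N + 1)), Perm.sign y0 = ε ∧
      ∀ K : Subgroup (Perm (Fin (N + 1))),
        tri (⟨0, by omega⟩ : Fin (N + 1)) ⟨1, by omega⟩ ⟨2, by omega⟩ ∈ K → y0 ∈ K →
          alternatingGroup (Fin (N + 1)) ≤ K := by
    by_cases h : ε = (-1) ^ N
    · exact ⟨finRotate (N + 1), by rw [sign_finRotate, h, Nat.add_sub_cancel],
        fun K h0 h1 => rot_generates hN K h0 h1⟩
    · refine ⟨cycTail N, ?_, fun K h0 h1 => tail_generates hN K h0 h1⟩
      rw [sign_cycTail]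
      have e : ((-1 : ℤˣ) ^ N) = (-1) ^ (N - 1) * -1 := by
        rw [← pow_succ, show N - 1 + 1 = N by omega]
      rcases Int.units_eq_one_or ε with rfl | rfl <;>
        rcases Int.units_eq_one_or ((-1 : ℤˣ) ^ (N - 1)) with h' | h' <;> rw [h'] at e ⊢ <;>
        rw [e] at h <;> simp at h ⊢
  refine ⟨x⁻¹ * y0 * x, ?_, ?_⟩
  · rw [map_mul, map_mul, map_inv, mul_right_comm, inv_mul_cancel, one_mul, hy0]
  · have h := hgen ((Subgroup.closure {z, x⁻¹ * y0 * x}).map (MulAut.conj x).toMonoidHom)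
      ⟨z, Subgroup.subset_closure (by simp), hx⟩
      ⟨x⁻¹ * y0 * x, Subgroup.subset_closure (by simp), by
        change x * (x⁻¹ * y0 * x) * x⁻¹ = y0
        group⟩
    intro σ hσ
    obtain ⟨τ, hτ, e⟩ := h (show x * σ * x⁻¹ ∈ alternatingGroup (Fin (N + 1)) by
      rw [Perm.mem_alternatingGroup, map_mul, map_mul, Perm.mem_alternatingGroup.1 hσ, mul_one,
        ← map_mul, mul_inv_cancel, map_one])
    rw [show σ = τ from ((MulAut.conj x).injective e).symm]
    exact hτ

theorem sym_partner (hN : 2 ≤ N) {z : Perm (Fin (N + 1))} (hz : z.IsThreeCycle) :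
    ∃ y : Perm (Fin (N + 1)), Subgroup.closure {z, y} = ⊤ := by
  obtain ⟨y, hy, hA⟩ := exists_partner hN hz (-1)
  refine ⟨y, (Subgroup.eq_top_iff' _).2 fun σ => ?_⟩
  rcases Int.units_eq_one_or (Perm.sign σ) with h | h
  · exact hA h
  · have h' : σ * y⁻¹ ∈ alternatingGroup (Fin (N + 1)) := by
      rw [Perm.mem_alternatingGroup, map_mul, map_inv, h, hy, mul_inv_cancel]
    have := Subgroup.mul_mem _ (hA h') (Subgroup.subset_closure (show y ∈ ({z, y} : Set _) by simp))
    rwa [inv_mul_cancel_right] at this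

theorem alt_partner (hN : 2 ≤ N) {z : alternatingGroup (Fin (N + 1))} (hz : z.1.IsThreeCycle) :
    ∃ y : alternatingGroup (Fin (N + 1)), Subgroup.closure {z, y} = ⊤ := by
  obtain ⟨y, hy, hA⟩ := exists_partner hN hz 1
  refine ⟨⟨y, hy⟩, (Subgroup.eq_top_iff' _).2 fun σ => ?_⟩
  have h : (σ : Perm (Fin (N + 1))) ∈ (Subgroup.closure {z, ⟨y, hy⟩}).map
      (alternatingGroup (Fin (N + 1))).subtype := by
    rw [MonoidHom.map_closure, Set.image_insert_eq, Set.image_singleton]
    exact hA σ.2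
  obtain ⟨τ, hτ, e⟩ := h
  rwa [← Subtype.ext e]

end CfsgLib.AltPres54
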